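import Mathlib

/-!
Overgroups in `A₈` of a standard `A₅` in which the normaliser of the `A₅` contains a Sylow
`2`-subgroup.
-/

set_option autoImplicit false
set_option linter.style.haveILetI false

namespace Cfsg.Agent.NatSLTwo

open Equiv

section Fix

variable {α : Type*} [Fintype α] [DecidableEq α]

/-- The even permutations fixing `T` pointwise. -/
def fixT (T : Finset α) : Subgroup (alternatingGroup α) where
  carrier := {g | ∀ t ∈ T, (g : Perm α) t = t}
  one_mem' := fun t _ => rfl
  mul_mem' := fun {g h} hg hh t ht => by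
    change (g : Perm α) ((h : Perm α) t) = t
    rw [hh t ht, hg t ht]
  inv_mem' := fun {g} hg t ht => by
    change ((g : Perm α))⁻¹ t = t
    rw [Perm.inv_eq_iff_eq, hg t ht]

theorem fixT_iff_not_mem {T : Finset α} (g : fixT T) (y : α) :
    ((g : alternatingGroup α) : Perm α) y ∉ T ↔ y ∉ T := by
  constructor <;> intro h hc
  · rw [g.2 y hc] at h; exact h hc
  · exact h (((g : alternatingGroup α) : Perm α).injective (g.2 _ hc) ▸ hc)

/-- Restriction to the complement. -/
def res (T : Finset α) : fixT T →* alternatingGroup {y // y ∉ T} where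
  toFun g := ⟨((g : alternatingGroup α) : Perm α).subtypePerm (fixT_iff_not_mem g), by
    rw [Perm.mem_alternatingGroup]
    refine Eq.trans ?_ (Perm.mem_alternatingGroup.1 g.1.2)
    convert Perm.sign_subtypePerm (p := fun y => y ∉ T) _ (fixT_iff_not_mem g)
      fun y hy hT => hy (g.2 y hT) using 3⟩
  map_one' := by ext; rfl
  map_mul' g h := by ext; rfl

theorem res_bijective (T : Finset α) : Function.Bijective (res T) := by
  constructor
  · intro g h e
    refine Subtype.ext (Subtype.ext (Perm.ext fun y => ?_))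
    by_cases hy : y ∈ T
    · rw [g.2 y hy, h.2 y hy]
    · exact congrArg Subtype.val (DFunLike.congr_fun (congrArg Subtype.val e) ⟨y, hy⟩)
  · intro g
    refine ⟨⟨⟨Perm.ofSubtype (g : Perm {y // y ∉ T}), ?_⟩, fun t ht => ?_⟩, ?_⟩
    · rw [Perm.mem_alternatingGroup, Perm.sign_ofSubtype]
      exact Perm.mem_alternatingGroup.1 g.2
    · exact Perm.ofSubtype_apply_of_not_mem _ (not_not.2 ht)
    · ext y
      exact congrArg Subtype.val (DFunLike.congr_fun (Perm.subtypePerm_ofSubtype (g : Perm {y // y ∉ T})) y)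

theorem exists_perm_of_notMem {T : Finset α} (hT : T.card + 3 ≤ Fintype.card α) {a y : α} (ha : a ∉ T)
    (hy : y ∉ T) : ∃ l ∈ fixT T, (l : Perm α) a = y := by
  by_cases hay : a = y
  · exact ⟨1, one_mem _, hay⟩
  obtain ⟨b, hb⟩ : ∃ b, b ∉ insert a (insert y T) := by
    by_contra! h
    have h1 := Finset.card_le_card (fun x _ => h x : (Finset.univ : Finset α) ⊆ _)
    have h2 := Finset.card_insert_le a (insert y T)
    have h3 := Finset.card_insert_le y T
    rw [Finset.card_univ] at h1
    omega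
  simp only [Finset.mem_insert, not_or] at hb
  refine ⟨⟨swap b y * swap a b, ?_⟩, fun t ht => ?_, ?_⟩
  · simp [Perm.mem_alternatingGroup, Ne.symm hb.1, hb.2.1]
  · have e1 : t ≠ a := fun e => ha (e ▸ ht)
    have e2 : t ≠ b := fun e => hb.2.2 (e ▸ ht)
    have e3 : t ≠ y := fun e => hy (e ▸ ht)
    change swap b y (swap a b t) = t
    rw [swap_apply_of_ne_of_ne e1 e2, swap_apply_of_ne_of_ne e2 e3]
  · change swap b y (swap a b a) = y
    rw [swap_apply_left, swap_apply_left]

theorem extend {H : Subgroup (alternatingGroup α)} {T T' : Finset α} (hTH : fixT T ≤ H)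
    (hT'H : fixT T' ≤ H) {x : α} (hxT : x ∈ T) (hx' : x ∉ T')
    (hcard : (T ∪ T').card + 2 ≤ Fintype.card α) (hT : T.card + 3 ≤ Fintype.card α) :
    fixT (T.erase x) ≤ H := by
  obtain ⟨a, ha⟩ : ∃ a, a ∉ T ∪ T' := by
    by_contra! h
    have h1 := Finset.card_le_card (fun x _ => h x : (Finset.univ : Finset α) ⊆ _)
    rw [Finset.card_univ] at h1
    omega
  obtain ⟨b, hb⟩ : ∃ b, b ∉ insert a (T ∪ T') := by
    by_contra! h
    have h1 := Finset.card_le_card (fun x _ => h x : (Finset.univ : Finset α) ⊆ _)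
    have h2 := Finset.card_insert_le a (T ∪ T')
    rw [Finset.card_univ] at h1
    omega
  simp only [Finset.mem_insert, Finset.mem_union, not_or] at ha hb
  have hxa : x ≠ a := fun e => ha.1 (e ▸ hxT)
  have hxb : x ≠ b := fun e => hb.2.1 (e ▸ hxT)
  let t : alternatingGroup α := ⟨swap a b * swap x a, by
    simp [Perm.mem_alternatingGroup, hxa, Ne.symm hb.1]⟩
  have ht : ∀ s, s ≠ x → s ≠ a → s ≠ b → (t : Perm α) s = s := fun s h1 h2 h3 => by
    change swap a b (swap x a s) = s
    rw [swap_apply_of_ne_of_ne h1 h2, swap_apply_of_ne_of_ne h2 h3]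
  have htx : (t : Perm α) x = b := by
    change swap a b (swap x a x) = b
    rw [swap_apply_left, swap_apply_left]
  have htH : t ∈ H := hT'H fun s hs => ht s (fun e => hx' (e ▸ hs)) (fun e => ha.2 (e ▸ hs))
    (fun e => hb.2.2 (e ▸ hs))
  intro g hg
  by_cases hgx : (g : Perm α) x = x
  · refine hTH fun s hs => ?_
    by_cases hsx : s = x
    · rw [hsx, hgx]
    · exact hg s (Finset.mem_erase.2 ⟨hsx, hs⟩)
  · have hy : (g : Perm α) x ∉ T := fun h => hgx <| by
      have h2 := hg _ (Finset.mem_erase.2 ⟨hgx, h⟩)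
      exact (g : Perm α).injective h2
    obtain ⟨l, hl, hlb⟩ := exists_perm_of_notMem hT hb.2.1 hy
    have hk : (l * t)⁻¹ * g ∈ fixT T := by
      intro s hs
      change ((l * t : alternatingGroup α) : Perm α)⁻¹ ((g : Perm α) s) = s
      rw [Perm.inv_eq_iff_eq]
      change (g : Perm α) s = (l : Perm α) ((t : Perm α) s)
      by_cases hsx : s = x
      · rw [hsx, htx, hlb]
      · rw [hg s (Finset.mem_erase.2 ⟨hsx, hs⟩), ht s hsx (fun e => ha.1 (e ▸ hs))
          (fun e => hb.2.1 (e ▸ hs)), hl s hs]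
    have h := H.mul_mem (H.mul_mem (hTH hl) htH) (hTH hk)
    rwa [mul_inv_cancel_left] at h

theorem fixT_map_le {H : Subgroup (alternatingGroup α)} {T : Finset α} (hTH : fixT T ≤ H)
    {h : alternatingGroup α} (hh : h ∈ H) :
    fixT (T.map (h : Perm α).toEmbedding) ≤ H := by
  intro g hg
  have hk : h⁻¹ * g * h ∈ fixT T := fun s hs => by
    change (h : Perm α)⁻¹ ((g : Perm α) ((h : Perm α) s)) = s
    rw [show (g : Perm α) ((h : Perm α) s) = (h : Perm α) s from
      hg _ (Finset.mem_map_of_mem (h : Perm α).toEmbedding hs), Perm.inv_eq_iff_eq]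
  have h' := H.mul_mem (H.mul_mem hh (hTH hk)) (H.inv_mem hh)
  rwa [show h * (h⁻¹ * g * h) * h⁻¹ = g by group] at h'

end Fix

/-- `L` an `A₅` centralised by an element of order three. -/
theorem exists_fixT {L : Subgroup (alternatingGroup (Fin 8))}
    (hL : Nonempty (L ≃* alternatingGroup (Fin 5)))
    (hC : ∃ c : alternatingGroup (Fin 8), orderOf c = 3 ∧ ∀ l ∈ L, c * l = l * c) :
    ∃ S : Finset (Fin 8), S.card = 3 ∧ L = fixT S := by
  classical
  obtain ⟨e⟩ := hL
  have hcard : Nat.card L = 60 := by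
    rw [Nat.card_congr e.toEquiv, nat_card_alternatingGroup, Nat.card_fin]; rfl
  haveI : IsSimpleGroup (alternatingGroup (Fin 5)) := alternatingGroup.isSimpleGroup (by simp)
  haveI : IsSimpleGroup L := MulEquiv.isSimpleGroup e
  obtain ⟨c, hc, hcl⟩ := hC
  haveI : Fact (Nat.Prime 3) := ⟨Nat.prime_three⟩
  obtain ⟨n, hn⟩ := Perm.cycleType_prime_order (σ := (c : Perm (Fin 8)))
    (by rw [Subgroup.orderOf_coe, hc]; exact Nat.prime_three)
  rw [Subgroup.orderOf_coe, hc] at hn
  have hsum := (Perm.sum_cycleType (c : Perm (Fin 8))).trans_le (Finset.card_le_univ _)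
  rw [hn, Multiset.sum_replicate, smul_eq_mul, Fintype.card_fin] at hsum
  rcases (show n = 0 ∨ n = 1 by omega) with rfl | rfl
  · set S := (c : Perm (Fin 8)).support with hS
    have hScard : S.card = 3 := by
      rw [hS, ← Perm.sum_cycleType, hn]; rfl
    have hpres : ∀ l : L, ∀ y, ((l : alternatingGroup (Fin 8)) : Perm (Fin 8)) y ∈ S ↔ y ∈ S := by
      intro l y
      have h := congrArg (fun g : alternatingGroup (Fin 8) => (g : Perm (Fin 8)) y) (hcl l l.2)
      simp only [Subgroup.coe_mul, Perm.mul_apply] at h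
      rw [hS, Perm.mem_support, Perm.mem_support, h]
      exact (EmbeddingLike.apply_eq_iff_eq _).not
    let φ : L →* Perm {y // y ∈ S} :=
      { toFun := fun l => ((l : alternatingGroup (Fin 8)) : Perm (Fin 8)).subtypePerm (hpres l)
        map_one' := by ext; rfl
        map_mul' := fun a b => by ext; rfl }
    have hφ : φ.ker = ⊤ := (IsSimpleGroup.eq_bot_or_eq_top_of_normal φ.ker inferInstance).resolve_left
      fun h => by
        have h' := Nat.card_le_card_of_injective φ ((MonoidHom.ker_eq_bot_iff φ).1 h)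
        rw [hcard, Nat.card_perm, Nat.card_eq_fintype_card, Fintype.card_coe, hScard] at h'
        exact absurd h' (by decide)
    refine ⟨S, hScard, ?_⟩
    have hle : L ≤ fixT S := fun l hl t ht =>
      congrArg Subtype.val (DFunLike.congr_fun
        (show φ ⟨l, hl⟩ = 1 from MonoidHom.mem_ker.1 (hφ ▸ Subgroup.mem_top _))
          (⟨t, ht⟩ : {y // y ∈ S}))
    refine Subgroup.eq_of_le_of_card_ge hle ?_
    rw [hcard, Nat.card_congr (Equiv.ofBijective _ (res_bijective S))]
    haveI : Nontrivial {y // y ∉ S} := by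
      rw [← Fintype.one_lt_card_iff_nontrivial, Fintype.card_subtype_compl, Fintype.card_coe,
        Fintype.card_fin, hScard]
      norm_num
    rw [nat_card_alternatingGroup, Nat.card_eq_fintype_card, Fintype.card_subtype_compl,
      Fintype.card_coe, Fintype.card_fin, hScard]
    rfl
  · exfalso
    have hle : L.map (alternatingGroup (Fin 8)).subtype ≤
        Subgroup.centralizer ({(c : Perm (Fin 8))} : Set (Perm (Fin 8))) := by
      rintro _ ⟨l, hl, rfl⟩
      rw [Subgroup.mem_centralizer_singleton_iff]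
      exact (congrArg Subtype.val (hcl l hl)).symm
    have h := Subgroup.card_dvd_of_le hle
    rw [Subgroup.card_map_of_injective Subtype.val_injective, hcard, Perm.nat_card_centralizer, hn] at h
    revert h
    decide

/-- Overgroups of a standard `A₅` in `A₈`. -/
theorem alt_seven_of_alt_eight (H L : Subgroup (alternatingGroup (Fin 8))) (hLH : L ≤ H)
    (hL : Nonempty (L ≃* alternatingGroup (Fin 5)))
    (hC : ∃ c : alternatingGroup (Fin 8), orderOf c = 3 ∧ ∀ l ∈ L, c * l = l * c)
    (hSyl : ∀ n : ℕ, 2 ^ n ∣ Nat.card H →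
      2 ^ n ∣ Nat.card ↥(H ⊓ Subgroup.normalizer (L : Set (alternatingGroup (Fin 8))))) :
    H ≤ Subgroup.normalizer (L : Set (alternatingGroup (Fin 8))) ∨
      Nonempty (H ≃* alternatingGroup (Fin 7)) := by
  classical
  obtain ⟨S, hS, rfl⟩ := exists_fixT hL hC
  set N := Subgroup.normalizer (fixT S : Set (alternatingGroup (Fin 8))) with hN
  have hNS : ∀ g ∈ N, ∀ s ∈ S, (g : Perm (Fin 8)) s ∈ S := by
    intro g hg s hs
    by_contra hgs
    obtain ⟨y, hy⟩ : ∃ y, y ∉ insert ((g : Perm (Fin 8)) s) S := by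
      by_contra! h
      have h1 := Finset.card_le_card (fun x _ => h x : (Finset.univ : Finset (Fin 8)) ⊆ _)
      have h2 := Finset.card_insert_le ((g : Perm (Fin 8)) s) S
      rw [Finset.card_univ, Fintype.card_fin] at h1
      omega
    simp only [Finset.mem_insert, not_or] at hy
    obtain ⟨l, hl, hly⟩ := exists_perm_of_notMem (T := S) (by simp [hS]) hgs hy.2
    have h := ((Subgroup.mem_normalizer_iff.1 hg) (g⁻¹ * l * g)).2
      (by rwa [show g * (g⁻¹ * l * g) * g⁻¹ = l by group]) s hs
    change (g : Perm (Fin 8))⁻¹ ((l : Perm (Fin 8)) ((g : Perm (Fin 8)) s)) = s at h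
    rw [hly, Perm.inv_eq_iff_eq] at h
    exact hy.1 h
  by_cases hstab : ∀ h ∈ H, ∀ s ∈ S, (h : Perm (Fin 8)) s ∈ S
  · left
    intro h hh
    refine Subgroup.mem_normalizer_fintype fun l hl s hs => ?_
    change (h : Perm (Fin 8)) ((l : Perm (Fin 8)) ((h : Perm (Fin 8))⁻¹ s)) = s
    rw [show (l : Perm (Fin 8)) ((h : Perm (Fin 8))⁻¹ s) = (h : Perm (Fin 8))⁻¹ s from
      hl _ (hstab h⁻¹ (H.inv_mem hh) s hs)]
    exact (h : Perm (Fin 8)).apply_symm_apply s
  push Not at hstab
  obtain ⟨h, hh, s, hs, hhs⟩ := hstab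
  obtain ⟨x, hxS, hx'⟩ : ∃ x ∈ S, x ∉ S.map (h : Perm (Fin 8)).toEmbedding := by
    by_contra! hall
    exact hhs ((Finset.eq_of_subset_of_card_le hall (by rw [Finset.card_map])).symm ▸
      Finset.mem_map_of_mem _ hs)
  have h2H : fixT (S.erase x) ≤ H := extend hLH (fixT_map_le hLH hh) hxS hx'
    (by
      have := Finset.card_union_le S (S.map (h : Perm (Fin 8)).toEmbedding)
      rw [Finset.card_map, hS] at this
      rw [Fintype.card_fin]; omega)
    (by rw [Fintype.card_fin, hS]; norm_num)
  set T := S.erase x with hTdef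
  have hT : T.card = 2 := by rw [hTdef, Finset.card_erase_of_mem hxS, hS]
  by_cases hstab2 : ∀ g ∈ H, ∀ t ∈ T, (g : Perm (Fin 8)) t ∈ T
  · exfalso
    have hxT : x ∉ T := Finset.notMem_erase x S
    have horb : MulAction.orbit H x = ((Tᶜ : Finset (Fin 8)) : Set (Fin 8)) := by
      ext y
      simp only [Finset.coe_compl, Set.mem_compl_iff, Finset.mem_coe]
      constructor
      · rintro ⟨g, rfl⟩ hgy
        refine hxT ?_
        have := hstab2 _ (H.inv_mem g.2) _ hgy
        simpa [Subgroup.smul_def] using this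
      · intro hy
        obtain ⟨l, hl, hlx⟩ := exists_perm_of_notMem (T := T) (by simp [hT]) hxT hy
        exact ⟨⟨l, h2H hl⟩, hlx⟩
    have hindex : (MulAction.stabilizer H x).index = 6 := by
      rw [MulAction.index_stabilizer, horb, Set.ncard_coe_finset, Finset.card_compl, hT,
        Fintype.card_fin]
    have hle : (H ⊓ N).subgroupOf H ≤ MulAction.stabilizer H x := by
      intro g hg
      rw [MulAction.mem_stabilizer_iff]
      have h1 := hNS _ hg.2 x hxS
      by_contra hne
      have h3 : ((g : alternatingGroup (Fin 8)) : Perm (Fin 8)) x ∈ T :=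
        Finset.mem_erase.2 ⟨hne, h1⟩
      have h4 := hstab2 _ (H.inv_mem g.2) _ h3
      exact hxT (by simpa using h4)
    obtain ⟨k, o, ho, hk⟩ := Nat.exists_eq_pow_mul_and_not_dvd
      (Nat.card_pos (α := MulAction.stabilizer H x)).ne' 2 (by norm_num)
    have h1 : 2 ^ (k + 1) ∣ Nat.card H := by
      rw [← Subgroup.card_mul_index (MulAction.stabilizer H x), hindex, hk]
      exact ⟨o * 3, by ring⟩
    have h5 := (hSyl _ h1).trans
      ((Nat.card_congr (Subgroup.subgroupOfEquivOfLe (inf_le_left : H ⊓ N ≤ H)).toEquiv).symm.dvd.trans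
        (Subgroup.card_dvd_of_le hle))
    rw [hk, pow_succ, Nat.mul_dvd_mul_iff_left (pow_pos two_pos k)] at h5
    exact ho h5
  push Not at hstab2
  obtain ⟨g, hg, t, ht, hgt⟩ := hstab2
  obtain ⟨y, hyT, hy'⟩ : ∃ y ∈ T, y ∉ T.map (g : Perm (Fin 8)).toEmbedding := by
    by_contra! hall
    exact hgt ((Finset.eq_of_subset_of_card_le hall (by rw [Finset.card_map])).symm ▸
      Finset.mem_map_of_mem _ ht)
  have h1H : fixT (T.erase y) ≤ H := extend h2H (fixT_map_le h2H hg) hyT hy'
    (by
      have := Finset.card_union_le T (T.map (g : Perm (Fin 8)).toEmbedding)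
      rw [Finset.card_map, hT] at this
      rw [Fintype.card_fin]; omega)
    (by rw [Fintype.card_fin, hT]; norm_num)
  obtain ⟨z, hz⟩ := Finset.card_eq_one.1
    (show (T.erase y).card = 1 by rw [Finset.card_erase_of_mem hyT, hT])
  rw [hz] at h1H
  by_cases hfix : ∀ g ∈ H, (g : Perm (Fin 8)) z = z
  · right
    have heq : H = fixT {z} := le_antisymm (fun g hg s hs => by
      rw [Finset.mem_singleton.1 hs]; exact hfix g hg) h1H
    subst heq
    have e : {y : Fin 8 // y ∉ ({z} : Finset (Fin 8))} ≃ Fin 7 :=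
      Fintype.equivFinOfCardEq (by rw [Fintype.card_subtype_compl]; simp)
    exact ⟨(MulEquiv.ofBijective _ (res_bijective {z})).trans (Equiv.altCongrHom e)⟩
  · exfalso
    push Not at hfix
    obtain ⟨g', hg', hgz⟩ := hfix
    have h0H : fixT (({z} : Finset (Fin 8)).erase z) ≤ H := extend h1H (fixT_map_le h1H hg')
      (Finset.mem_singleton_self z) (by simpa using fun e => hgz (Eq.symm e))
      (by
        have := Finset.card_union_le ({z} : Finset (Fin 8))
          (({z} : Finset (Fin 8)).map (g' : Perm (Fin 8)).toEmbedding)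
        rw [Finset.card_map, Finset.card_singleton] at this
        rw [Fintype.card_fin]; omega)
      (by rw [Fintype.card_fin, Finset.card_singleton]; norm_num)
    have htop : H = ⊤ := eq_top_iff.2 fun g _ => h0H (by simp [fixT])
    have hA : Nat.card (alternatingGroup (Fin 8)) = 20160 := by
      rw [nat_card_alternatingGroup, Nat.card_fin]; rfl
    haveI : Fact (Nat.Prime 2) := ⟨Nat.prime_two⟩
    obtain ⟨P, hP⟩ := Sylow.exists_subgroup_card_pow_prime (G := ↥(H ⊓ N)) 2 (n := 6)
      (hSyl 6 (by rw [htop, Subgroup.card_top, hA]; norm_num))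
    have hPS : ∀ (q : P) (s : Fin 8), s ∈ S →
        (((q : ↥(H ⊓ N)) : alternatingGroup (Fin 8)) : Perm (Fin 8)) s ∈ S := fun q s hs =>
      hNS _ q.1.2.2 s hs
    letI : MulAction P {s // s ∈ S} :=
      { smul := fun q s => ⟨_, hPS q s.1 s.2⟩
        one_smul := fun s => Subtype.ext rfl
        mul_smul := fun q q' s => Subtype.ext rfl }
    have hfp := (IsPGroup.of_card hP).nonempty_fixed_point_of_prime_not_dvd_card (p := 2)
      {s // s ∈ S} (by rw [Nat.card_eq_fintype_card, Fintype.card_coe, hS]; decide)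
    obtain ⟨⟨s₀, hs₀⟩, hfix₀⟩ := hfp
    have hle : (P.map (H ⊓ N).subtype) ≤ fixT {s₀} := by
      rintro _ ⟨q, hq, rfl⟩ s hs
      rw [Finset.mem_singleton.1 hs]
      exact congrArg Subtype.val (hfix₀ ⟨q, hq⟩)
    have h6 := Subgroup.card_dvd_of_le hle
    haveI : Nontrivial {y : Fin 8 // y ∉ ({s₀} : Finset (Fin 8))} := by
      rw [← Fintype.one_lt_card_iff_nontrivial, Fintype.card_subtype_compl]; simp
    rw [Subgroup.card_map_of_injective (H ⊓ N).subtype_injective, hP,
      Nat.card_congr (Equiv.ofBijective _ (res_bijective ({s₀} : Finset (Fin 8)))),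
      nat_card_alternatingGroup, Nat.card_eq_fintype_card, Fintype.card_subtype_compl] at h6
    simp at h6
    revert h6
    decide

end Cfsg.Agent.NatSLTwo
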