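import Cfsg.Agent.NatSLTwo.Quad

/-!
An odd-order solvable group of automorphisms of a finite elementary abelian `p`-group, `p` odd, that is
generated by quadratic elements is a `p`-group.
-/

set_option autoImplicit false
set_option linter.style.haveILetI false
set_option linter.unusedSectionVars false

namespace Cfsg.Agent.NatSLTwo

universe u

variable {p : ℕ} [hp : Fact p.Prime]

theorem end_natCast_eq_zero {V : Type u} [AddCommGroup V] (hV : ∀ v : V, p • v = 0) :
    (p : AddMonoid.End V) = 0 := by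
  ext v
  rw [AddMonoid.End.natCast_apply, hV]
  rfl

/-- The endomorphism induced on an invariant subgroup. -/
noncomputable def onSub {V : Type u} [AddCommGroup V] {X : Type*} [Group X]
    (ρ : X →* AddMonoid.End V) (W : AddSubgroup V) (hW : ∀ x, ∀ w ∈ W, ρ x w ∈ W) :
    X →* AddMonoid.End W where
  toFun x := ((ρ x : V →+ V).comp W.subtype).codRestrict W fun w => hW x w w.2
  map_one' := AddMonoidHom.ext fun w => Subtype.ext <| by
    change ρ 1 (w : V) = w
    rw [map_one]; rfl
  map_mul' x y := AddMonoidHom.ext fun w => Subtype.ext <| by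
    change ρ (x * y) (w : V) = ρ x (ρ y (w : V))
    rw [map_mul]; rfl

/-- The endomorphism induced on the quotient by an invariant subgroup. -/
noncomputable def onQuot {V : Type u} [AddCommGroup V] {X : Type*} [Group X]
    (ρ : X →* AddMonoid.End V) (W : AddSubgroup V) (hW : ∀ x, ∀ w ∈ W, ρ x w ∈ W) :
    X →* AddMonoid.End (V ⧸ W) where
  toFun x := QuotientAddGroup.map W W (ρ x : V →+ V) fun w hw => hW x w hw
  map_one' := AddMonoidHom.ext fun v => QuotientAddGroup.induction_on v fun v => by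
    change ((ρ 1 v : V) : V ⧸ W) = (v : V ⧸ W)
    rw [map_one]; rfl
  map_mul' x y := AddMonoidHom.ext fun v => QuotientAddGroup.induction_on v fun v => by
    change ((ρ (x * y) v : V) : V ⧸ W) = ((ρ x (ρ y v) : V) : V ⧸ W)
    rw [map_mul]; rfl

theorem pow_fix {R : Type*} [Monoid R] {g : R} {p i j : ℕ} (h : g ^ p ^ i = 1) :
    g ^ p ^ (i + j) = 1 := by rw [pow_add, pow_mul, h, one_pow]

theorem isPGroup_of_quad (hp2 : p ≠ 2) {V : Type u} [AddCommGroup V] [Finite V]
    (hV : ∀ v : V, p • v = 0) (X : Subgroup (AddMonoid.End V)ˣ) (hsol : Group.IsSolvable X)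
    (hodd : Odd (Nat.card X))
    (hgen : X ≤ Subgroup.closure {x | x ∈ X ∧ Quad x}) : IsPGroup p X := by
  induction' hk : Nat.card V using Nat.strong_induction_on with k ih generalizing V
  classical
  subst hk
  haveI : Finite (AddMonoid.End V) :=
    Finite.of_injective (fun f : AddMonoid.End V => (f : V → V)) DFunLike.coe_injective
  haveI : Finite (AddMonoid.End V)ˣ :=
    Finite.of_injective (fun f : (AddMonoid.End V)ˣ => (f : AddMonoid.End V)) Units.val_injective
  have hR := end_natCast_eq_zero (p := p) hV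
  set S : Set (AddMonoid.End V)ˣ := {x | x ∈ X ∧ Quad x} with hS
  have hSX : Subgroup.closure S ≤ X := (Subgroup.closure_le X).2 fun x hx => hx.1
  -- reduction along a normal abelian `p`-subgroup
  have hred : ∀ K : Subgroup (AddMonoid.End V)ˣ, K ≤ X → K ≠ ⊥ →
      (∀ x ∈ X, ∀ a ∈ K, x * a * x⁻¹ ∈ K) → IsPGroup p K → IsPGroup p X := by
    intro K hKX hK1 hKn hKp
    let W : AddSubgroup V :=
      { carrier := {v | ∀ a ∈ K, (a : AddMonoid.End V) v = v}
        zero_mem' := fun a _ => map_zero _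
        add_mem' := fun {v w} hv hw a ha => by rw [map_add, hv a ha, hw a ha]
        neg_mem' := fun {v} hv a ha => by rw [map_neg, hv a ha] }
    let ρ : X →* AddMonoid.End V := (Units.coeHom _).comp X.subtype
    have hW : ∀ x, ∀ w ∈ W, ρ x w ∈ W := by
      intro x w hw a ha
      have h := hw _ (hKn _ (X.inv_mem x.2) a ha)
      change (a : AddMonoid.End V) ((x.1 : AddMonoid.End V) w) = (x.1 : AddMonoid.End V) w
      conv_rhs => rw [← h]
      simp only [inv_inv, Units.val_mul, AddMonoid.End.coe_mul, Function.comp_apply]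
      rw [← Function.comp_apply (f := ⇑(x.1 : AddMonoid.End V)), ← AddMonoid.End.coe_mul,
        Units.mul_inv, AddMonoid.End.coe_one, id_eq]
    obtain ⟨a0, ha0, ha01⟩ : ∃ a ∈ K, a ≠ 1 := (Subgroup.ne_bot_iff_exists_ne_one.1 hK1).elim
      fun a ha => ⟨a.1, a.2, fun h => ha (Subtype.ext h)⟩
    have hWtop : W ≠ ⊤ := fun h => ha01 <| Units.ext <| by
      ext v
      exact (show v ∈ W by rw [h]; trivial) a0 ha0
    have hVnt : ∃ v : V, v ≠ 0 := by
      by_contra! h
      exact ha01 (Units.ext (by ext v; rw [h v, map_zero, map_zero]))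
    have hWbot : W ≠ ⊥ := by
      letI : MulAction K V :=
        { smul := fun a v => ((a : (AddMonoid.End V)ˣ) : AddMonoid.End V) v
          one_smul := fun v => rfl
          mul_smul := fun a b v => rfl }
      obtain ⟨v, hv⟩ := hVnt
      have hdvd : p ∣ Nat.card V := by
        have : addOrderOf v = p := addOrderOf_eq_prime (hV v) hv
        exact this ▸ addOrderOf_dvd_natCard v
      obtain ⟨b, hb, hb0⟩ := hKp.exists_fixed_point_of_prime_dvd_card_of_fixed_point V hdvd
        (a := 0) (fun a => map_zero _)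
      intro h
      exact hb0 ((AddSubgroup.mem_bot.1 (h ▸ (fun a ha => hb ⟨a, ha⟩ : b ∈ W))).symm)
    have hcard1 : Nat.card W < Nat.card V := by
      refine lt_of_le_of_ne (Nat.le_of_dvd Nat.card_pos (AddSubgroup.card_addSubgroup_dvd_card W)) ?_
      exact fun h => hWtop (AddSubgroup.eq_top_of_card_eq W h)
    have hcard2 : Nat.card (V ⧸ W) < Nat.card V := by
      rw [AddSubgroup.card_eq_card_quotient_mul_card_addSubgroup W]
      refine lt_mul_of_one_lt_right Nat.card_pos ?_
      exact AddSubgroup.one_lt_card_iff_ne_bot _ |>.2 hWbot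
    have step : ∀ (V' : Type u) [AddCommGroup V'] [Finite V'], (∀ v : V', p • v = 0) →
        Nat.card V' < Nat.card V → ∀ φ : X →* AddMonoid.End V',
          (∀ x : X, Quad (x : (AddMonoid.End V)ˣ) → Quad (φ.toHomUnits x)) →
            ∀ x : X, ∃ i : ℕ, φ x ^ p ^ i = 1 := by
      intro V' _ _ hV' hlt φ hφ x
      set f := φ.toHomUnits
      haveI := hsol
      have h := ih (Nat.card V') hlt hV' f.range
        (Group.isSolvable_of_surjective f.rangeRestrict_surjective)
        (hodd.of_dvd_nat (Subgroup.card_range_dvd f))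
        (by
          have hX' : ∀ y : X, y ∈ Subgroup.closure {z : X | Quad (z : (AddMonoid.End V)ˣ)} := by
            intro y
            have hy := hgen y.2
            have e : S = X.subtype '' {z : X | Quad (z : (AddMonoid.End V)ˣ)} := by
              ext z
              exact ⟨fun hz => ⟨⟨z, hz.1⟩, hz.2, rfl⟩, by rintro ⟨z, hz, rfl⟩; exact ⟨z.2, hz⟩⟩
            rw [e, ← MonoidHom.map_closure] at hy
            obtain ⟨z, hz, hzy⟩ := hy
            rwa [← Subtype.ext hzy]
          rintro _ ⟨y, rfl⟩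
          have hy := Subgroup.mem_map_of_mem f (hX' y)
          rw [MonoidHom.map_closure] at hy
          refine Subgroup.closure_mono ?_ hy
          rintro _ ⟨z, hz, rfl⟩
          exact ⟨⟨z, rfl⟩, hφ z hz⟩) rfl
      obtain ⟨i, hi⟩ := h ⟨f x, x, rfl⟩
      refine ⟨i, ?_⟩
      have h' := congrArg (fun z : f.range => ((z : (AddMonoid.End V')ˣ) : AddMonoid.End V')) hi
      simpa [f] using h'
    intro x
    obtain ⟨i, hi⟩ := step W (fun w => Subtype.ext (by simpa using hV w)) hcard1 (onSub ρ W hW)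
      (fun x hx => by
        unfold Quad at hx ⊢
        ext w
        exact DFunLike.congr_fun hx (w : V)) x
    obtain ⟨j, hj⟩ := step (V ⧸ W)
      (fun v => QuotientAddGroup.induction_on v fun v => by rw [← QuotientAddGroup.mk_nsmul, hV]; rfl)
      hcard2 (onQuot ρ W hW) (fun x hx => by
        unfold Quad at hx ⊢
        refine AddMonoidHom.ext fun v => QuotientAddGroup.induction_on v fun v => ?_
        exact congrArg (QuotientAddGroup.mk (s := W)) (DFunLike.congr_fun hx v)) x
    set g : X := x ^ p ^ (i + j) with hg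
    have g1 : onSub ρ W hW g = 1 := by rw [hg, map_pow, pow_fix hi]
    have g2 : onQuot ρ W hW g = 1 := by rw [hg, map_pow, add_comm, pow_fix hj]
    have hq : Quad (g : (AddMonoid.End V)ˣ) := by
      unfold Quad
      ext v
      have hw : ρ g v - v ∈ W := by
        have h := DFunLike.congr_fun g2 (v : V ⧸ W)
        exact (QuotientAddGroup.eq_iff_sub_mem).1 h
      set w : W := ⟨ρ g v - v, hw⟩ with hwdef
      have h1 : ((onSub ρ W hW g) w : V) = ((1 : AddMonoid.End W) w : V) := by rw [g1]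
      change ρ g (ρ g v - v) = ρ g v - v at h1
      exact sub_eq_zero.2 h1
    refine ⟨i + j + 1, Subtype.ext ?_⟩
    rw [pow_succ, pow_mul, ← hg, SubgroupClass.coe_pow, hq.pow_char hR]
    rfl
  by_contra hnp
  have hnoK : ∀ K : Subgroup (AddMonoid.End V)ˣ, K ≤ X →
      (∀ x ∈ X, ∀ a ∈ K, x * a * x⁻¹ ∈ K) → IsPGroup p K → K = ⊥ :=
    fun K h1 h2 h3 => by_contra fun h => hnp (hred K h1 h h2 h3)
  have habel : ∀ C : Subgroup (AddMonoid.End V)ˣ, C ≤ X → (∀ x ∈ X, ∀ a ∈ C, x * a * x⁻¹ ∈ C) →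
      (∀ a ∈ C, a ^ p = 1 → ∀ b ∈ C, a * b = b * a) → ¬ p ∣ Nat.card C := by
    intro C hCX hCn hcen hdvd
    let K : Subgroup (AddMonoid.End V)ˣ :=
      { carrier := {a | a ∈ C ∧ a ^ p = 1}
        one_mem' := ⟨C.one_mem, one_pow _⟩
        mul_mem' := fun {a b} ha hb =>
          ⟨C.mul_mem ha.1 hb.1, by rw [(show Commute a b from hcen a ha.1 ha.2 b hb.1).mul_pow, ha.2, hb.2, one_mul]⟩
        inv_mem' := fun {a} ha => ⟨C.inv_mem ha.1, by rw [inv_pow, ha.2, inv_one]⟩ }
    obtain ⟨c, hc⟩ := exists_prime_orderOf_dvd_card' p hdvd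
    have hcK : (c : (AddMonoid.End V)ˣ) ∈ K := ⟨c.2, by
      have h := congrArg Subtype.val (pow_orderOf_eq_one c)
      rwa [hc] at h⟩
    have hK := hnoK K (fun a ha => hCX ha.1)
      (fun x hx a ha => ⟨hCn x hx a ha.1, by rw [conj_pow, ha.2, mul_one, mul_inv_cancel]⟩)
      (fun a => ⟨1, Subtype.ext (by rw [pow_one]; exact a.2.2)⟩)
    have : (c : C) = 1 := Subtype.ext (Subgroup.mem_bot.1 (hK ▸ hcK))
    rw [this, orderOf_one] at hc
    exact hp.out.ne_one hc.symm
  -- every normal `p'`-subgroup is central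
  have hcentral : ∀ C : Subgroup (AddMonoid.End V)ˣ, C ≤ X → (∀ x ∈ X, ∀ a ∈ C, x * a * x⁻¹ ∈ C) →
      ¬ p ∣ Nat.card C → ∀ x ∈ X, ∀ a ∈ C, x * a = a * x := by
    intro C hCX hCn hC x hx a ha
    haveI := hsol
    have hCs : Group.IsSolvable C :=
      Group.isSolvable_of_isSolvable_injective (Subgroup.inclusion_injective hCX)
    have hle : Subgroup.closure S ≤ Subgroup.centralizer ({a} : Set (AddMonoid.End V)ˣ) := by
      refine (Subgroup.closure_le _).2 fun u hu => ?_
      rw [SetLike.mem_coe, Subgroup.mem_centralizer_singleton_iff]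
      exact commute_of_solvable hp2 hR hu.2 C hCs hC
        (hodd.of_dvd_nat (Subgroup.card_dvd_of_le hCX)) (hCn u hu.1) a ha
    exact Subgroup.mem_centralizer_singleton_iff.1 (hle (hgen hx))
  haveI := hsol
  let D : ℕ → Subgroup (AddMonoid.End V)ˣ := fun n => (derivedSeries X n).map X.subtype
  have hDX : ∀ n, D n ≤ X := fun n => Subgroup.map_subtype_le _
  have hDn : ∀ n, ∀ x ∈ X, ∀ a ∈ D n, x * a * x⁻¹ ∈ D n := by
    intro n x hx a ha
    obtain ⟨a, ha, rfl⟩ := ha
    exact ⟨⟨x, hx⟩ * a * ⟨x, hx⟩⁻¹, (derivedSeries_normal X n).conj_mem a ha _, rfl⟩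
  have hDsucc : ∀ n, ∀ a ∈ D n, ∀ b ∈ D n, a * b * a⁻¹ * b⁻¹ ∈ D (n + 1) := by
    rintro n _ ⟨a, ha, rfl⟩ _ ⟨b, hb, rfl⟩
    exact ⟨a * b * a⁻¹ * b⁻¹, Subgroup.commutator_mem_commutator ha hb, rfl⟩
  obtain ⟨m, hm⟩ := hsol.solvable
  have hDm : D m = ⊥ := by simp [D, hm]
  have hP : ∃ n, D n = ⊥ := ⟨m, hDm⟩
  have hN0 : Nat.find hP ≠ 0 := fun h => by
    have h0 : D 0 = ⊥ := h ▸ Nat.find_spec hP
    refine hnp fun x => ⟨0, ?_⟩
    have : (x : (AddMonoid.End V)ˣ) ∈ D 0 := ⟨x, Subgroup.mem_top x, rfl⟩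
    rw [pow_zero, pow_one]
    exact Subtype.ext (Subgroup.mem_bot.1 (h0 ▸ this))
  obtain ⟨N, hN⟩ : ∃ N, Nat.find hP = N + 1 := ⟨Nat.find hP - 1, by omega⟩
  have hA0 : D (N + 1) = ⊥ := hN ▸ Nat.find_spec hP
  have hAne : D N ≠ ⊥ := Nat.find_min hP (by omega)
  have hcomm_of : ∀ n, D (n + 1) = ⊥ → ∀ a ∈ D n, ∀ b ∈ D n, a * b = b * a := fun n h a ha b hb =>
    commutatorElement_eq_one_iff_mul_comm.1 (Subgroup.mem_bot.1 (h ▸ hDsucc n a ha b hb))
  have hAab := hcomm_of N hA0
  have hAp : ¬ p ∣ Nat.card (D N) :=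
    habel _ (hDX N) (hDn N) fun a ha _ b hb => hAab a ha b hb
  rcases Nat.eq_zero_or_pos N with rfl | hNpos
  · -- abelian, generated by elements of order `p`
    refine hnp fun x => ⟨1, ?_⟩
    have hXab : ∀ a ∈ X, ∀ b ∈ X, a * b = b * a := fun a ha b hb =>
      hAab a ⟨⟨a, ha⟩, Subgroup.mem_top _, rfl⟩ b ⟨⟨b, hb⟩, Subgroup.mem_top _, rfl⟩
    apply Subtype.ext
    rw [pow_one, SubgroupClass.coe_pow, OneMemClass.coe_one]
    obtain ⟨x, hxX⟩ := x
    have hx := hgen hxX
    change x ^ p = 1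
    clear hxX
    induction hx using Subgroup.closure_induction with
    | mem y hy => exact hy.2.pow_char hR
    | one => exact one_pow _
    | mul a b ha hb ia ib =>
      rw [(show Commute a b from hXab a (hSX ha) b (hSX hb)).mul_pow, ia, ib, one_mul]
    | inv a _ ia => rw [inv_pow, ia, inv_one]
  obtain ⟨M, rfl⟩ : ∃ M, N = M + 1 := ⟨N - 1, by omega⟩
  have hAc := hcentral _ (hDX _) (hDn _) hAp
  have hBp : ¬ p ∣ Nat.card (D M) := by
    refine habel _ (hDX M) (hDn M) fun a ha hap b hb => ?_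
    set κ := a * b * a⁻¹ * b⁻¹ with hκdef
    have hκ : κ ∈ D (M + 1) := hDsucc M a ha b hb
    have hca : Commute κ a := (hAc a (hDX M ha) κ hκ).symm
    have hcb : Commute κ b := (hAc b (hDX M hb) κ hκ).symm
    have hpow : ∀ n : ℕ, a ^ n * b = κ ^ n * (b * a ^ n) := by
      intro n
      induction n with
      | zero => simp
      | succ k ik =>
        calc a ^ (k + 1) * b = a * (a ^ k * b) := by rw [pow_succ', mul_assoc]
          _ = a * κ ^ k * (b * a ^ k) := by rw [ik, mul_assoc]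
          _ = κ ^ k * (a * b) * a ^ k := by rw [(hca.pow_left k).eq.symm]; simp only [mul_assoc]
          _ = κ ^ k * (κ * (b * a)) * a ^ k := by rw [hκdef]; group
          _ = κ ^ (k + 1) * (b * a ^ (k + 1)) := by rw [pow_succ, pow_succ']; simp only [mul_assoc]
    have h := hpow p
    rw [hap, one_mul, mul_one] at h
    have hκp : κ ^ p = 1 := mul_right_cancel (b := b) (by rw [one_mul]; exact h.symm)
    have hκ1 : κ = 1 := by
      rw [← orderOf_eq_one_iff]
      exact Nat.eq_one_of_dvd_coprimes ((hp.out.coprime_iff_not_dvd).2 hAp)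
        (orderOf_dvd_of_pow_eq_one hκp) (Subgroup.orderOf_dvd_natCard _ hκ)
    exact commutatorElement_eq_one_iff_mul_comm.1 hκ1
  have hBc := hcentral _ (hDX M) (hDn M) hBp
  refine hAne (le_antisymm ?_ bot_le)
  rintro _ ⟨a, ha, rfl⟩
  rw [derivedSeries_succ] at ha
  have hle : ⁅derivedSeries X M, derivedSeries X M⁆ ≤ ⊥ := by
    refine Subgroup.commutator_le.2 fun x hx y hy => Subgroup.mem_bot.2 ?_
    apply X.subtype_injective
    rw [map_one, map_commutatorElement]
    exact commutatorElement_eq_one_iff_mul_comm.2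
      (hBc x x.2 y ⟨y, hy, rfl⟩)
  rw [Subgroup.mem_bot.1 (hle ha), map_one]
  exact Subgroup.mem_bot.2 rfl

end Cfsg.Agent.NatSLTwo
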