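import Mathlib

/-!
Quadratic elements in groups of odd order.  A unit `u` with `(u - 1)² = 0` in a ring of odd prime
characteristic `p` centralises every solvable `p'`-subgroup of odd order that it normalises, so an
odd-order linear group generated by such elements is a `p`-group, provided it is solvable.
-/

set_option autoImplicit false
set_option linter.style.haveILetI false
set_option linter.unusedSectionVars false

namespace Cfsg.Agent.NatSLTwo

section Ring

variable {R : Type*} [Ring R] {p : ℕ} [hp : Fact p.Prime]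

/-- `u` is quadratic. -/
def Quad (u : Rˣ) : Prop := ((u : R) - 1) * ((u : R) - 1) = 0

theorem Quad.inv_val {u : Rˣ} (hu : Quad u) : ((u⁻¹ : Rˣ) : R) = 1 - ((u : R) - 1) := by
  have h : (u : R) * (1 - ((u : R) - 1)) = 1 := by
    have h' : (u : R) * (1 - ((u : R) - 1)) - 1 = -(((u : R) - 1) * ((u : R) - 1)) := by noncomm_ring
    rw [hu, neg_zero, sub_eq_zero] at h'
    exact h'
  exact Units.inv_eq_of_mul_eq_one_right h

theorem Quad.pow_char {u : Rˣ} (hu : Quad u) (hR : (p : R) = 0) : u ^ p = 1 := by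
  have key : ∀ n : ℕ, (u : R) ^ n = 1 + n * ((u : R) - 1) := by
    intro n
    induction n with
    | zero => simp
    | succ k ih =>
      rw [pow_succ, ih]
      have h' : (1 + (k : R) * ((u : R) - 1)) * (u : R) =
          1 + ((k + 1 : ℕ) : R) * ((u : R) - 1) + (k : R) * (((u : R) - 1) * ((u : R) - 1)) := by
        push_cast; noncomm_ring
      rw [h', hu, mul_zero, add_zero]
  exact Units.ext (by rw [Units.val_pow_eq_pow_val, key, hR, zero_mul, add_zero, Units.val_one])

theorem eq_zero_of_two_mul (hp2 : p ≠ 2) (hR : (p : R) = 0) {z : R} (h : z + z = 0) : z = 0 := by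
  obtain ⟨k, hk⟩ := hp.out.odd_of_ne_two hp2
  have h1 : (p : R) * z = (k : R) * (z + z) + z := by
    rw [hk]; push_cast; noncomm_ring
  simpa [hR, h] using h1.symm

/-- A quadratic unit centralises a reduced commutative subring which it normalises. -/
theorem commute_of_subring (hp2 : p ≠ 2) (hR : (p : R) = 0) {u : Rˣ} (hu : Quad u) (B : Subring R)
    (hBu : ∀ x ∈ B, (u : R) * x * ((u⁻¹ : Rˣ) : R) ∈ B)
    (hred : ∀ x ∈ B, x * x = 0 → x = 0) : ∀ x ∈ B, (u : R) * x = x * (u : R) := by
  set a : R := (u : R) - 1 with ha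
  have ha2 : a * a = 0 := hu
  have haa : ∀ y : R, a * (a * y) = 0 := fun y => by rw [← mul_assoc, ha2, zero_mul]
  have hu' : (u : R) = 1 + a := by rw [ha]; abel
  have hD : ∀ x ∈ B, a * x - x * a - a * x * a ∈ B := fun x hx => by
    have h := B.sub_mem (hBu x hx) hx
    rw [hu.inv_val, ← ha, hu'] at h
    convert h using 1
    noncomm_ring
  have hkill : ∀ x ∈ B, a * x * a = 0 := by
    intro x hx
    have h := hD _ (hD x hx)
    have e : a * (a * x - x * a - a * x * a) - (a * x - x * a - a * x * a) * a -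
        a * (a * x - x * a - a * x * a) * a = -(a * x * a + a * x * a) := by
      simp only [mul_sub, sub_mul, mul_assoc, ha2, haa, mul_zero]
      abel
    rw [e] at h
    replace h := B.neg_mem h
    rw [neg_neg] at h
    refine eq_zero_of_two_mul hp2 hR (hred _ h ?_)
    simp only [mul_add, add_mul, mul_assoc, haa, mul_zero, add_zero]
  intro x hx
  have h := hD x hx
  rw [hkill x hx, sub_zero] at h
  have h0 : a * x - x * a = 0 := by
    refine hred _ h ?_
    have e1 : a * (x * a) = 0 := by rw [← mul_assoc]; exact hkill x hx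
    have e2 : a * (x * (x * a)) = 0 := by
      rw [← mul_assoc x, ← mul_assoc]; exact hkill _ (B.mul_mem hx hx)
    have e3 : a * (x * (a * x)) = 0 := by rw [← mul_assoc x, ← mul_assoc, e1, zero_mul]
    simp only [mul_sub, sub_mul, mul_assoc, haa, e1, e2, e3, mul_zero, sub_zero]
  rw [hu', add_mul, mul_add, one_mul, mul_one, sub_eq_zero.1 h0]

/-- The subring generated by a commutative `p'`-group of units is reduced. -/
theorem reduced_of_abelian (hp2 : p ≠ 2) (hR : (p : R) = 0) (A : Subgroup Rˣ)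
    (hA : ∀ a ∈ A, ∀ b ∈ A, a * b = b * a) [Finite A] (hcop : ¬ p ∣ Nat.card A) :
    ∀ x ∈ Subring.closure ((fun a : Rˣ => (a : R)) '' (A : Set Rˣ)), x * x = 0 → x = 0 := by
  classical
  set S := (fun a : Rˣ => (a : R)) '' (A : Set Rˣ)
  set n := Nat.card A
  have hn : 0 < n := Nat.card_pos
  set P := p ^ Nat.totient n with hP
  have hP1 : P % n = 1 % n := Nat.ModEq.pow_totient ((hp.out.coprime_iff_not_dvd).2 hcop)
  have hPodd : Odd P := (hp.out.odd_of_ne_two hp2).pow
  have hP2 : 2 ≤ P := le_trans hp.out.two_le (Nat.le_self_pow (Nat.totient_pos.2 hn).ne' p)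
  have hcomm : ∀ x ∈ Subring.closure S, ∀ y ∈ Subring.closure S, Commute x y := by
    intro x hx y hy
    refine Subring.closure_induction₂ (p := fun x y _ _ => Commute x y) ?_ ?_ ?_ ?_ ?_ ?_ ?_ ?_ ?_ ?_ ?_ hx hy
    · rintro _ _ ⟨a, ha, rfl⟩ ⟨b, hb, rfl⟩
      exact (Units.ext_iff.1 (hA a ha b hb))
    all_goals intros
    all_goals first
      | exact Commute.zero_left _
      | exact Commute.zero_right _
      | exact Commute.one_left _
      | exact Commute.one_right _
      | (exact Commute.neg_left (by assumption))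
      | (exact Commute.neg_right (by assumption))
      | (exact Commute.add_left (by assumption) (by assumption))
      | (exact Commute.add_right (by assumption) (by assumption))
      | (exact Commute.mul_left (by assumption) (by assumption))
      | (exact Commute.mul_right (by assumption) (by assumption))
  have hfix : ∀ x ∈ Subring.closure S, x ^ P = x := by
    intro x hx
    induction hx using Subring.closure_induction with
    | mem y hy =>
      obtain ⟨a, ha, rfl⟩ := hy
      have h1 : a ^ n = 1 := congrArg Subtype.val (pow_card_eq_one' (x := (⟨a, ha⟩ : A)))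
      have h2 : a ^ P = a := by
        rw [← Nat.div_add_mod P n, pow_add, pow_mul, h1, one_pow, one_mul, hP1]
        rcases Nat.lt_or_ge 1 n with hlt | hge
        · rw [Nat.mod_eq_of_lt hlt, pow_one]
        · have : n = 1 := by omega
          rw [this, pow_one] at h1
          rw [h1, one_pow]
      rw [← Units.val_pow_eq_pow_val, h2]
    | zero => exact zero_pow (by omega)
    | one => exact one_pow _
    | add y z hy hz iy iz =>
      obtain ⟨r, hr⟩ := (hcomm y hy z hz).exists_add_pow_prime_pow_eq hp.out (Nat.totient n)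
      rw [hP] at iy iz ⊢
      rw [hr, iy, iz, hR, zero_mul, zero_mul, zero_mul, add_zero]
    | neg y _ iy => rw [hPodd.neg_pow, iy]
    | mul y z hy hz iy iz => rw [(hcomm y hy z hz).mul_pow, iy, iz]
  intro x hx h
  rw [← hfix x hx, ← Nat.add_sub_of_le hP2, pow_add, pow_two, h, zero_mul]

/-- A quadratic unit centralises every abelian `p'`-group which it normalises. -/
theorem commute_of_abelian (hp2 : p ≠ 2) (hR : (p : R) = 0) {u : Rˣ} (hu : Quad u) (A : Subgroup Rˣ)
    (hA : ∀ a ∈ A, ∀ b ∈ A, a * b = b * a) [Finite A] (hcop : ¬ p ∣ Nat.card A)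
    (hn : ∀ a ∈ A, u * a * u⁻¹ ∈ A) {a : Rˣ} (ha : a ∈ A) : u * a = a * u := by
  apply Units.ext
  refine commute_of_subring hp2 hR hu (Subring.closure ((fun a : Rˣ => (a : R)) '' (A : Set Rˣ)))
    ?_ (reduced_of_abelian hp2 hR A hA hcop) _ (Subring.subset_closure ⟨a, ha, rfl⟩)
  intro x hx
  induction hx using Subring.closure_induction with
  | mem y hy =>
    obtain ⟨b, hb, rfl⟩ := hy
    exact Subring.subset_closure ⟨_, hn b hb, by simp⟩
  | zero => simp
  | one => simp
  | add y z _ _ iy iz => rw [mul_add, add_mul]; exact Subring.add_mem _ iy iz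
  | neg y _ iy => rw [mul_neg, neg_mul]; exact Subring.neg_mem _ iy
  | mul y z _ _ iy iz =>
    have h := Subring.mul_mem _ iy iz
    rwa [show (u : R) * (y * z) * ((u⁻¹ : Rˣ) : R) =
      (u : R) * y * ((u⁻¹ : Rˣ) : R) * ((u : R) * z * ((u⁻¹ : Rˣ) : R)) by
        simp [mul_assoc]]

theorem conj_zpow_mem {G : Type*} [Group G] (N : Subgroup G) [Finite N] {u : G}
    (hn : ∀ a ∈ N, u * a * u⁻¹ ∈ N) (i : ℤ) {a : G} (ha : a ∈ N) : u ^ i * a * (u ^ i)⁻¹ ∈ N := by
  have hu : u ∈ Subgroup.normalizer (N : Set G) := Subgroup.mem_normalizer_fintype hn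
  exact (Subgroup.mem_normalizer_iff.1 ((Subgroup.normalizer (N : Set G)).zpow_mem hu i) a).1 ha

/-- A quadratic unit centralises every solvable odd-order `p'`-group which it normalises. -/
theorem commute_of_solvable (hp2 : p ≠ 2) (hR : (p : R) = 0) {u : Rˣ} (hu : Quad u) :
    ∀ (N : Subgroup Rˣ) [Finite N], Group.IsSolvable N → ¬ p ∣ Nat.card N → Odd (Nat.card N) →
      (∀ a ∈ N, u * a * u⁻¹ ∈ N) → ∀ a ∈ N, u * a = a * u := by
  intro N
  induction' hk : Nat.card N using Nat.strong_induction_on with k ih generalizing N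
  intro hfin hsol hcop hodd hn n hnN
  classical
  subst hk
  rcases eq_or_ne N ⊥ with rfl | hne
  · rw [Subgroup.mem_bot] at hnN; simp [hnN]
  haveI : Nontrivial N := (Subgroup.nontrivial_iff_ne_bot N).2 hne
  haveI := hsol
  set N' : Subgroup Rˣ := ⁅N, N⁆ with hN'
  have hle : N' ≤ N := Subgroup.commutator_le.2 fun a ha b hb =>
    N.mul_mem (N.mul_mem (N.mul_mem ha hb) (N.inv_mem ha)) (N.inv_mem hb)
  have hlt : N' < N := by
    refine lt_of_le_of_ne hle fun he => ?_
    have hmap : (commutator N).map N.subtype = N' := Subgroup.map_subtype_commutator N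
    have htop : commutator N = ⊤ := by
      apply Subgroup.map_injective N.subtype_injective
      rw [hmap, ← MonoidHom.range_eq_map, Subgroup.range_subtype, he]
    exact (Group.IsSolvable.commutator_lt_top_of_nontrivial N).ne htop
  haveI : Finite N' := Finite.of_injective _ (Subgroup.inclusion_injective hle)
  have hdvd : Nat.card N' ∣ Nat.card N := Subgroup.card_dvd_of_le hle
  have hcard : Nat.card N' < Nat.card N := by
    refine lt_of_le_of_ne (Nat.le_of_dvd Nat.card_pos hdvd) fun h => hlt.ne ?_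
    exact Subgroup.eq_of_le_of_card_ge hle h.ge
  have hfix : ∀ m ∈ N', u * m = m * u := ih (Nat.card N') hcard N' rfl
    (Group.isSolvable_of_isSolvable_injective (Subgroup.inclusion_injective hle))
    (fun h => hcop (h.trans hdvd)) (hodd.of_dvd_nat hdvd)
    (fun m hm => by
      have hmap : N.map (MulAut.conj u).toMonoidHom ≤ N := by
        rintro _ ⟨x, hx, rfl⟩; exact hn x hx
      have h := Subgroup.mem_map_of_mem (MulAut.conj u).toMonoidHom hm
      rw [hN', Subgroup.map_commutator] at h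
      exact Subgroup.commutator_mono hmap hmap h)
  set w := n * u * n⁻¹ with hw
  set y := u⁻¹ * w with hy
  have hyN : y ∈ N := by
    have h := N.mul_mem (conj_zpow_mem N hn (-1) hnN) (N.inv_mem hnN)
    simpa [hy, hw, mul_assoc] using h
  have hycomm : ∀ m ∈ N', Commute y m := by
    intro m hm
    have h1 : Commute u m := hfix m hm
    have hmm : n⁻¹ * m * n ∈ N' := by
      have hmap : N.map (MulAut.conj n⁻¹).toMonoidHom ≤ N := by
        rintro _ ⟨x, hx, rfl⟩
        simpa using N.mul_mem (N.mul_mem (N.inv_mem hnN) hx) hnN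
      have h := Subgroup.mem_map_of_mem (MulAut.conj n⁻¹).toMonoidHom hm
      rw [hN', Subgroup.map_commutator] at h
      simpa using Subgroup.commutator_mono hmap hmap h
    have h2 : Commute w m := by
      have h := hfix _ hmm
      simp only [hw, Commute, SemiconjBy]
      calc n * u * n⁻¹ * m = n * (u * (n⁻¹ * m * n)) * n⁻¹ := by group
        _ = n * ((n⁻¹ * m * n) * u) * n⁻¹ := by rw [h]
        _ = m * (n * u * n⁻¹) := by group
    exact h1.inv_left.mul_left h2
  have hwq : Quad w := by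
    have e : (w : R) - 1 = (n : R) * ((u : R) - 1) * ((n⁻¹ : Rˣ) : R) := by
      simp [hw, mul_sub, sub_mul, mul_assoc]
    unfold Quad
    rw [e, show (n : R) * ((u : R) - 1) * ((n⁻¹ : Rˣ) : R) * ((n : R) * ((u : R) - 1) *
      ((n⁻¹ : Rˣ) : R)) = (n : R) * (((u : R) - 1) * ((u : R) - 1)) * ((n⁻¹ : Rˣ) : R) by
      simp [mul_assoc], hu, mul_zero, zero_mul]
  -- the sum `y + y⁻¹` commutes with `u`
  set t : R := (y : R) + ((y⁻¹ : Rˣ) : R) with ht
  have htu : Commute t (u : R) := by
    have h1 := hu.inv_val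
    have h2 := hwq.inv_val
    have e1 : (y : R) = ((u⁻¹ : Rˣ) : R) * (w : R) := by rw [hy, Units.val_mul]
    have e2 : ((y⁻¹ : Rˣ) : R) = ((w⁻¹ : Rˣ) : R) * (u : R) := by
      rw [hy, mul_inv_rev, inv_inv, Units.val_mul]
    rw [ht, e1, e2, h1, h2]
    set a : R := (u : R) - 1 with ha
    set b : R := (w : R) - 1 with hb
    have ha2 : a * a = 0 := hu
    rw [show (u : R) = 1 + a by rw [ha]; abel, show (w : R) = 1 + b by rw [hb]; abel]
    have haa : ∀ z : R, a * (a * z) = 0 := fun z => by rw [← mul_assoc, ha2, zero_mul]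
    simp only [Commute, SemiconjBy, mul_add, add_mul, mul_sub, sub_mul, mul_one, one_mul, mul_assoc,
      ha2, haa, mul_zero]
    abel
  set Y : Set Rˣ := Set.range fun i : ℤ => u ^ i * y * (u ^ i)⁻¹ with hYdef
  have hYN : Y ⊆ N := by rintro _ ⟨i, rfl⟩; exact conj_zpow_mem N hn i hyN
  have hsum : ∀ z ∈ Y, (z : R) + ((z⁻¹ : Rˣ) : R) = t := by
    rintro _ ⟨i, rfl⟩
    have hti : Commute t ((u ^ i : Rˣ) : R) := htu.units_zpow_right i
    calc _ = ((u ^ i : Rˣ) : R) * t * (((u ^ i)⁻¹ : Rˣ) : R) := by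
          simp [ht, mul_inv_rev, mul_add, add_mul, mul_assoc]
      _ = t := by rw [← hti.eq, mul_assoc, ← Units.val_mul, mul_inv_cancel, Units.val_one, mul_one]
  have hYfix : ∀ z ∈ Y, ∀ m ∈ N', Commute z m := by
    rintro _ ⟨i, rfl⟩ m hm
    have h1 : Commute (u ^ i) m := Commute.zpow_left (hfix m hm) i
    exact (h1.mul_left (hycomm m hm)).mul_left h1.inv_left
  have hYcomm : ∀ z₁ ∈ Y, ∀ z₂ ∈ Y, z₁ * z₂ = z₂ * z₁ := by
    intro z₁ h₁ z₂ h₂
    set κ := z₁ * z₂ * z₁⁻¹ * z₂⁻¹ with hκdef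
    have hκ : κ ∈ N' := Subgroup.commutator_mem_commutator (hYN h₁) (hYN h₂)
    have hk1 : Commute z₁ κ := hYfix z₁ h₁ κ hκ
    have hk2 : Commute z₂ κ := hYfix z₂ h₂ κ hκ
    have econj : z₁ * z₂ * z₁⁻¹ = κ * z₂ := by rw [hκdef]; group
    -- `κ z + κ⁻¹ z⁻¹ = z + z⁻¹`
    have h0 : ((κ : R) - 1) * ((κ : R) * (z₂ : R) * (z₂ : R) - 1) = 0 := by
      have ht1 : (z₁ : R) * t = t * (z₁ : R) := by
        rw [← hsum z₁ h₁, mul_add, add_mul, Units.mul_inv, Units.inv_mul]
      have hadd : ((κ * z₂ : Rˣ) : R) + (((κ * z₂)⁻¹ : Rˣ) : R) = t := by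
        rw [← econj]
        calc _ = (z₁ : R) * ((z₂ : R) + ((z₂⁻¹ : Rˣ) : R)) * ((z₁⁻¹ : Rˣ) : R) := by
              simp [mul_inv_rev, mul_add, add_mul, mul_assoc]
          _ = t := by rw [hsum z₂ h₂, ht1, mul_assoc, Units.mul_inv, mul_one]
      have h := congrArg (fun r : R => ((κ * z₂ : Rˣ) : R) * r) (hadd.trans (hsum z₂ h₂).symm)
      simp only [mul_add, ← Units.val_mul, mul_inv_cancel, Units.val_one] at h
      rw [show κ * z₂ * z₂⁻¹ = κ by group, Units.val_mul, Units.val_mul, Units.val_mul] at h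
      have hc : (κ : R) * (z₂ : R) = (z₂ : R) * (κ : R) := Units.ext_iff.1 hk2.symm.eq
      have h' : (κ : R) * (z₂ : R) * ((κ : R) * (z₂ : R)) + 1 - ((κ : R) * (z₂ : R) * (z₂ : R) + (κ : R)) = 0 :=
        sub_eq_zero.2 h
      rw [show (κ : R) * (z₂ : R) * ((κ : R) * (z₂ : R)) = (κ : R) * ((κ : R) * (z₂ : R) * (z₂ : R)) by
        simp only [mul_assoc]; rw [← mul_assoc (z₂ : R) (κ : R), ← hc, mul_assoc]] at h'
      rw [← h']; noncomm_ring
    have hk1' : (z₁ : R) * (κ : R) = (κ : R) * (z₁ : R) := Units.ext_iff.1 hk1.eq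
    have h1 : ((κ : R) - 1) * ((κ : R) * ((κ : R) * (z₂ : R)) * ((κ : R) * (z₂ : R)) - 1) = 0 := by
      have e : (z₁ : R) * (((κ : R) - 1) * ((κ : R) * (z₂ : R) * (z₂ : R) - 1)) * ((z₁⁻¹ : Rˣ) : R) = 0 := by
        rw [h0, mul_zero, zero_mul]
      have hφ : ∀ r s : R, (z₁ : R) * (r * s) * ((z₁⁻¹ : Rˣ) : R) =
          (z₁ : R) * r * ((z₁⁻¹ : Rˣ) : R) * ((z₁ : R) * s * ((z₁⁻¹ : Rˣ) : R)) := by
        intro r s; simp [mul_assoc]
      have ec : (z₁ : R) * (z₂ : R) * ((z₁⁻¹ : Rˣ) : R) = (κ : R) * (z₂ : R) := by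
        rw [← Units.val_mul, ← Units.val_mul, econj, Units.val_mul]
      have ek : (z₁ : R) * (κ : R) * ((z₁⁻¹ : Rˣ) : R) = (κ : R) := by
        rw [hk1', mul_assoc, Units.mul_inv, mul_one]
      have e1 : ∀ r : R, (z₁ : R) * (r - 1) * ((z₁⁻¹ : Rˣ) : R) =
          (z₁ : R) * r * ((z₁⁻¹ : Rˣ) : R) - 1 := by
        intro r; rw [mul_sub, sub_mul, mul_one, Units.mul_inv]
      rw [hφ, e1, e1, ek, hφ, hφ, ek, ec] at e
      exact e
    have hc : (z₂ : R) * (κ : R) = (κ : R) * (z₂ : R) := Units.ext_iff.1 hk2.eq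
    have h2 : ((κ : R) - 1) * ((κ : R) + 1) * (((κ : R) - 1) * (κ : R) * (z₂ : R) * (z₂ : R)) = 0 := by
      have e : (κ : R) * ((κ : R) * (z₂ : R)) * ((κ : R) * (z₂ : R)) =
          (κ : R) * (κ : R) * (κ : R) * (z₂ : R) * (z₂ : R) := by
        simp only [mul_assoc]; rw [← mul_assoc (z₂ : R) (κ : R), hc, mul_assoc]
      rw [e] at h1
      have h3 := sub_eq_zero.2 (h1.trans h0.symm)
      rw [← h3]; noncomm_ring
    have h3 : ((κ : R) - 1) * ((κ : R) + 1) * ((κ : R) - 1) = 0 := by
      have h4 := congrArg (fun r : R => r * (((κ * z₂ * z₂)⁻¹ : Rˣ) : R)) h2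
      simp only [zero_mul] at h4
      rwa [show ((κ : R) - 1) * (κ : R) * (z₂ : R) * (z₂ : R) =
        ((κ : R) - 1) * ((κ * z₂ * z₂ : Rˣ) : R) by simp [mul_assoc], mul_assoc, mul_assoc, mul_assoc,
        Units.mul_inv, mul_one, ← mul_assoc] at h4
    haveI : Finite (Subgroup.zpowers κ) :=
      Finite.of_injective _ (Subgroup.inclusion_injective (Subgroup.zpowers_le.2 (hle hκ)))
    have hmem : (κ : R) ∈ Subring.closure ((fun a : Rˣ => (a : R)) '' (Subgroup.zpowers κ : Set Rˣ)) :=
      Subring.subset_closure ⟨κ, Subgroup.mem_zpowers κ, rfl⟩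
    have h5 : ((κ : R) - 1) * ((κ : R) + 1) = 0 :=
      reduced_of_abelian hp2 hR (Subgroup.zpowers κ)
        (fun a ha b hb => by
          obtain ⟨i, rfl⟩ := ha; obtain ⟨j, rfl⟩ := hb; exact zpow_mul_comm κ i j)
        (fun hd => hcop (hd.trans (Subgroup.card_dvd_of_le (Subgroup.zpowers_le.2 (hle hκ)))))
        _ (Subring.mul_mem _ (Subring.sub_mem _ hmem (Subring.one_mem _))
          (Subring.add_mem _ hmem (Subring.one_mem _)))
        (by
          rw [show ((κ : R) - 1) * ((κ : R) + 1) * (((κ : R) - 1) * ((κ : R) + 1)) =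
            ((κ : R) - 1) * ((κ : R) + 1) * ((κ : R) - 1) * ((κ : R) + 1) by simp only [mul_assoc],
            h3, zero_mul])
    have h6 : κ ^ 2 = 1 := by
      apply Units.ext
      rw [Units.val_pow_eq_pow_val, Units.val_one, ← sub_eq_zero, ← h5, pow_two]
      noncomm_ring
    have h7 : κ = 1 := by
      rw [← orderOf_eq_one_iff]
      exact Nat.eq_one_of_dvd_coprimes (Nat.coprime_two_left.2 hodd) (orderOf_dvd_of_pow_eq_one h6)
        (Subgroup.orderOf_dvd_natCard N (hle hκ))
    exact commutatorElement_eq_one_iff_mul_comm.1 h7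
  set A := Subgroup.closure Y with hAdef
  have hAN : A ≤ N := (Subgroup.closure_le N).2 hYN
  haveI : Finite A := Finite.of_injective _ (Subgroup.inclusion_injective hAN)
  have hAcomm : ∀ a ∈ A, ∀ b ∈ A, a * b = b * a := by
    intro a ha b hb
    haveI := Subgroup.isMulCommutative_closure hYcomm
    exact congrArg Subtype.val (mul_comm' (⟨a, ha⟩ : A) ⟨b, hb⟩)
  have hAn : ∀ a ∈ A, u * a * u⁻¹ ∈ A := by
    intro a ha
    have h : A.map (MulAut.conj u).toMonoidHom ≤ A := by
      rw [hAdef, MonoidHom.map_closure]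
      refine Subgroup.closure_mono ?_
      rintro _ ⟨_, ⟨i, rfl⟩, rfl⟩
      refine ⟨1 + i, ?_⟩
      simp [zpow_add, mul_assoc, mul_inv_rev]
    exact h ⟨a, ha, rfl⟩
  have hyA : y ∈ A := Subgroup.subset_closure ⟨0, by simp⟩
  have huy : Commute u y := commute_of_abelian hp2 hR hu A hAcomm
    (fun hd => hcop (hd.trans (Subgroup.card_dvd_of_le hAN))) hAn hyA
  have hwy : w = u * y := by rw [hy, mul_inv_cancel_left]
  have hyp : y ^ p = 1 := by
    have h := hwq.pow_char hR
    rwa [hwy, huy.mul_pow, hu.pow_char hR, one_mul] at h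
  have hy1 : y = 1 := by
    rw [← orderOf_eq_one_iff]
    exact Nat.eq_one_of_dvd_coprimes ((hp.out.coprime_iff_not_dvd).2 hcop)
      (orderOf_dvd_of_pow_eq_one hyp) (Subgroup.orderOf_dvd_natCard N hyN)
  have : n * u * n⁻¹ = u := by rw [← hw, hwy, hy1, mul_one]
  exact (mul_inv_eq_iff_eq_mul.1 this).symm

end Ring

end Cfsg.Agent.NatSLTwo
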