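import Mathlib

/-!
A finite group acting on `F × F` (additively) that contains the transvections of both axes and has a
Sylow `p`-subgroup of semilinear maps.  The elementary facts about the stabiliser of the first axis.
-/

set_option autoImplicit false
set_option linter.style.haveILetI false
set_option linter.unusedSectionVars false

namespace Cfsg.Agent.NatSLTwo

/-- `σ`-semilinear. -/
def IsSemi {F : Type*} [Field F] (σ : F ≃+* F) (f : AddMonoid.End (F × F)) : Prop :=
  ∀ (c : F) (v : F × F), f (c • v) = σ c • f v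

/-- The hypotheses. -/
structure Data (p : ℕ) [Fact p.Prime] (F : Type*) [Field F] [Finite F] [CharP F p]
    (G : Type*) [Group G] [Finite G] (ρ : G →* AddMonoid.End (F × F)) : Prop where
  inj : Function.Injective ρ
  upper : ∀ t : F, ∃ g : G, ∀ v : F × F, ρ g v = (v.1 + t * v.2, v.2)
  lower : ∀ t : F, ∃ g : G, ∀ v : F × F, ρ g v = (v.1, v.2 + t * v.1)
  sylow : ∃ P : Sylow p G, ∀ g ∈ P, ∃ σ : F ≃+* F, IsSemi σ (ρ g)

section Field

variable {p : ℕ} [hp : Fact p.Prime] {F : Type*} [Field F] [Finite F] [CharP F p]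

/-- Two involutory automorphisms of a finite field are equal. -/
theorem ringAut_involution_unique {σ τ : F ≃+* F} (hσ : ∀ x, σ (σ x) = x) (hσ1 : ∃ x, σ x ≠ x)
    (hτ : ∀ x, τ (τ x) = x) (hτ1 : ∃ x, τ x ≠ x) : σ = τ := by
  obtain ⟨p, hp⟩ := CharP.exists F
  haveI : Fact p.Prime := ⟨(CharP.char_is_prime_or_zero F p).resolve_right (CharP.char_ne_zero_of_finite F p)⟩
  classical
  haveI : Fintype F := Fintype.ofFinite F
  letI : Algebra (ZMod p) F := ZMod.algebra F p
  let lift : (F ≃+* F) → (F ≃ₐ[ZMod p] F) := fun e => AlgEquiv.ofRingEquiv (f := e) fun n =>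
    RingHom.congr_fun (Subsingleton.elim (e.toRingHom.comp (algebraMap (ZMod p) F))
      (algebraMap (ZMod p) F)) n
  have hlift : ∀ e : F ≃+* F, ∀ x, lift e x = e x := fun e x => rfl
  haveI : Fintype (F ≃ₐ[ZMod p] F) := Fintype.ofFinite _
  have hle := IsCyclic.card_pow_eq_one_le (α := F ≃ₐ[ZMod p] F) (n := 2) two_pos
  by_contra hne
  have h3 : ({1, lift σ, lift τ} : Finset (F ≃ₐ[ZMod p] F)) ⊆
      Finset.univ.filter fun e => e ^ 2 = 1 := by
    intro e he
    simp only [Finset.mem_insert, Finset.mem_singleton] at he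
    rw [Finset.mem_filter]
    refine ⟨Finset.mem_univ _, ?_⟩
    rcases he with rfl | rfl | rfl
    · exact one_pow 2
    · ext x; simp [pow_two, hlift, hσ]
    · ext x; simp [pow_two, hlift, hτ]
  have hc : ({1, lift σ, lift τ} : Finset (F ≃ₐ[ZMod p] F)).card = 3 := by
    obtain ⟨x, hx⟩ := hσ1
    obtain ⟨y, hy⟩ := hτ1
    rw [Finset.card_insert_of_notMem, Finset.card_pair]
    · exact fun h => hne (RingEquiv.ext fun z => DFunLike.congr_fun h z)
    · simp only [Finset.mem_insert, Finset.mem_singleton, not_or]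
      exact ⟨fun h => hx (DFunLike.congr_fun h x).symm, fun h => hy (DFunLike.congr_fun h y).symm⟩
  have := (Finset.card_le_card h3).trans hle
  omega

/-- A twice-differenced automorphism is trivial in odd characteristic. -/
theorem ringAut_eq_of_quad (hp2 : p ≠ 2) (σ : F ≃+* F) (h : ∀ c, σ (σ c) - 2 * σ c + c = 0) (c : F) :
    σ c = c := by
  have h2 := h (c * c)
  rw [map_mul, map_mul] at h2
  have h1 : σ (σ c) = 2 * σ c - c := by linear_combination h c
  rw [h1] at h2
  have h3 : (2 : F) * ((σ c - c) * (σ c - c)) = 0 := by linear_combination h2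
  haveI : NeZero (2 : F) := ⟨Ring.two_ne_zero (by rwa [ringChar.eq F p])⟩
  rcases mul_eq_zero.1 h3 with h4 | h4
  · exact absurd h4 two_ne_zero
  · exact sub_eq_zero.1 (mul_self_eq_zero.1 h4)

/-- The fixed field of a non-trivial automorphism is at most a square root of the field. -/
theorem card_fixed_sq_le (σ : F ≃+* F) (hσ : ∃ x, σ x ≠ x) :
    Nat.card {x : F // σ x = x} ^ 2 ≤ Nat.card F := by
  let K : Subfield F := σ.toRingHom.eqLocusField (RingHom.id F)
  have e : Nat.card {x : F // σ x = x} = Nat.card K := rfl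
  rw [e, Module.natCard_eq_pow_finrank (K := K) (V := F)]
  refine Nat.pow_le_pow_right Nat.card_pos ?_
  by_contra h
  have h1 : Module.finrank K F = 1 := by
    have : 0 < Module.finrank K F := Module.finrank_pos
    omega
  obtain ⟨x, hx⟩ := hσ
  have htop := Subalgebra.bot_eq_top_of_finrank_eq_one h1
  have hxb : x ∈ (⊥ : Subalgebra K F) := htop ▸ Algebra.mem_top
  obtain ⟨k, rfl⟩ := Algebra.mem_bot.1 hxb
  exact hx k.2

end Field

namespace Data

variable {p : ℕ} [hp : Fact p.Prime] {F : Type*} [Field F] [Finite F] [CharP F p]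
variable {G : Type*} [Group G] [Finite G] {ρ : G →* AddMonoid.End (F × F)} (d : Data p F G ρ)

theorem map_inv_apply (ρ : G →* AddMonoid.End (F × F)) (g : G) (v : F × F) : ρ g⁻¹ (ρ g v) = v := by
  change (ρ g⁻¹ * ρ g) v = v
  rw [← map_mul, inv_mul_cancel, map_one]; rfl

theorem map_apply_inv (ρ : G →* AddMonoid.End (F × F)) (g : G) (v : F × F) : ρ g (ρ g⁻¹ v) = v := by
  simpa using map_inv_apply ρ g⁻¹ v

theorem map_mul_apply (ρ : G →* AddMonoid.End (F × F)) (g h : G) (v : F × F) :
    ρ (g * h) v = ρ g (ρ h v) := by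
  rw [map_mul]; rfl

theorem map_one_apply (ρ : G →* AddMonoid.End (F × F)) (v : F × F) : ρ 1 v = v := by
  rw [map_one]; rfl

include d in
theorem ext {g h : G} (H : ∀ v, ρ g v = ρ h v) : g = h := d.inj (DFunLike.ext _ _ H)

theorem add_char_nsmul (v : F × F) : p • v = 0 := by
  ext <;> simp [nsmul_eq_mul]

/-- The first axis is preserved. -/
def Pres (ρ : G →* AddMonoid.End (F × F)) (g : G) : Prop := ∀ x : F, (ρ g (x, 0)).2 = 0

/-- The upper transvection. -/
noncomputable def e (t : F) : G := (d.upper t).choose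

theorem e_apply (t : F) (v : F × F) : ρ (d.e t) v = (v.1 + t * v.2, v.2) := (d.upper t).choose_spec v

theorem e_add (s t : F) : d.e (s + t) = d.e s * d.e t :=
  d.ext fun v => by rw [map_mul_apply, d.e_apply, d.e_apply, d.e_apply]; ext <;> simp; ring

theorem e_zero : d.e 0 = 1 := d.ext fun v => by rw [map_one_apply, d.e_apply]; simp

theorem e_injective : Function.Injective d.e := by
  intro s t h
  have := congrArg Prod.fst (congrArg (fun g => ρ g (0, 1)) h)
  simpa [d.e_apply] using this

/-- Pointwise trivial on the first axis, and mapping everything into it modulo identity. -/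
def InR (ρ : G →* AddMonoid.End (F × F)) (g : G) : Prop :=
  (∀ x : F, ρ g (x, 0) = (x, 0)) ∧ ∀ v, (ρ g v).2 = v.2

theorem e_inR (t : F) : InR ρ (d.e t) :=
  ⟨fun x => by simp [d.e_apply], fun v => by simp [d.e_apply]⟩

theorem InR.sub_mem {g : G} (h : InR ρ g) (v : F × F) :
    ρ g v = v + ((ρ g v).1 - v.1, 0) := by
  ext <;> simp [h.2]

/-- The subgroup of such elements. -/
def radical (ρ : G →* AddMonoid.End (F × F)) : Subgroup G where
  carrier := {g | InR ρ g}
  one_mem' := ⟨fun x => map_one_apply ρ _, fun v => by rw [map_one_apply]⟩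
  mul_mem' := fun {a b} ha hb =>
    ⟨fun x => by rw [map_mul_apply, hb.1, ha.1], fun v => by rw [map_mul_apply, ha.2, hb.2]⟩
  inv_mem' := fun {a} ha =>
    ⟨fun x => by conv_lhs => rw [← ha.1 x, map_inv_apply],
      fun v => by conv_rhs => rw [← map_apply_inv ρ a v, ha.2]⟩

theorem mem_radical {g : G} : g ∈ radical ρ ↔ InR ρ g := Iff.rfl

theorem InR.quad {g : G} (h : InR ρ g) (v : F × F) :
    ρ g (ρ g v) - ρ g v - (ρ g v - v) = 0 := by
  set w : F × F := ((ρ g v).1 - v.1, 0) with hw
  have e1 := h.sub_mem v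
  rw [← hw] at e1
  have e2 : ρ g w = w := h.1 _
  rw [e1, map_add, e1, e2]; abel

include d in
theorem radical_comm {a b : G} (ha : a ∈ radical ρ) (hb : b ∈ radical ρ) : a * b = b * a := by
  refine d.ext fun v => ?_
  have e1 := InR.sub_mem ha v
  have e2 := InR.sub_mem hb v
  rw [map_mul_apply, map_mul_apply]
  set w₁ : F × F := ((ρ a v).1 - v.1, 0)
  set w₂ : F × F := ((ρ b v).1 - v.1, 0) with hw2
  rw [e1, e2, map_add, map_add, e1, e2, (show ρ a w₂ = w₂ from ha.1 _),
    (show ρ b w₁ = w₁ from hb.1 _)]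
  abel

include d in
theorem radical_pow {a : G} (ha : a ∈ radical ρ) : a ^ p = 1 := by
  refine d.ext fun v => ?_
  set w : F × F := ((ρ a v).1 - v.1, 0) with hw
  have e1 := InR.sub_mem ha v
  rw [← hw] at e1
  have key : ∀ n : ℕ, ρ (a ^ n) v = v + n • w := by
    intro n
    induction n with
    | zero => rw [pow_zero, map_one_apply, zero_smul, add_zero]
    | succ k ih =>
      rw [pow_succ', map_mul_apply, ih, map_add, map_nsmul, e1, (show ρ a w = w from ha.1 _),
        succ_nsmul]
      abel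
  rw [key, map_one_apply, add_char_nsmul, add_zero]

include d in
theorem isPGroup_radical : IsPGroup p (radical ρ) := fun a =>
  ⟨1, Subtype.ext (by rw [pow_one, SubgroupClass.coe_pow]; exact d.radical_pow a.2)⟩

include d in
/-- Every `p`-subgroup is conjugate to a group of semilinear maps. -/
theorem exists_conj_semi {A : Subgroup G} (hA : IsPGroup p A) :
    ∃ c : G, ∀ a ∈ A, ∃ σ : F ≃+* F, IsSemi σ (ρ (c * a * c⁻¹)) := by
  obtain ⟨P, hP⟩ := d.sylow
  obtain ⟨Q, hQ⟩ := hA.exists_le_sylow
  obtain ⟨c, hc⟩ := MulAction.exists_smul_eq G Q P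
  refine ⟨c, fun a ha => hP _ ?_⟩
  rw [← hc]
  exact ⟨a, hQ ha, rfl⟩

/-- A quadratic semilinear map is linear in odd characteristic. -/
theorem semi_quad_linear (hp2 : p ≠ 2) {f : AddMonoid.End (F × F)} {σ : F ≃+* F} (hσ : IsSemi σ f)
    (hq : ∀ v, f (f v) - f v - (f v - v) = 0) (c : F) (v : F × F) : f (c • v) = c • f v := by
  obtain ⟨m, hm0, hm⟩ : ∃ m : F × F, m ≠ 0 ∧ f m = m := by
    by_cases h : ∀ w, f w = w
    · exact ⟨(1, 0), by simp, h _⟩
    · push Not at h
      obtain ⟨w, hw⟩ := h
      refine ⟨f w - w, sub_ne_zero.2 hw, ?_⟩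
      rw [map_sub]; exact sub_eq_zero.1 (hq w)
  have h : ∀ a : F, σ (σ a) - 2 * σ a + a = 0 := by
    intro a
    have h := hq (a • m)
    rw [hσ, hm, hσ, hm] at h
    have h' : (σ (σ a) - 2 * σ a + a) • m = 0 := by
      rw [← h, two_mul]; module
    exact (smul_eq_zero.1 h').resolve_right hm0
  rw [hσ, ringAut_eq_of_quad (p := p) hp2 σ h c]

include d in
/-- There are at most `q` elements in the radical. -/
theorem card_radical_le : Nat.card (radical ρ) ≤ Nat.card F := by
  classical
  obtain ⟨c, hc⟩ := d.exists_conj_semi d.isPGroup_radical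
  let φ : radical ρ → AddMonoid.End (F × F) := fun a => ρ (c * a * c⁻¹)
  have hφinj : Function.Injective φ := fun a b h => by
    have := d.inj h
    simpa using this
  have hquad : ∀ a : radical ρ, ∀ v, φ a (φ a v) - φ a v - (φ a v - v) = 0 := by
    intro a v
    have h := congrArg (ρ c) (InR.quad a.2 (ρ c⁻¹ v))
    simpa [φ, map_mul_apply, map_apply_inv, map_inv_apply] using h
  have hcomm : ∀ a b : radical ρ, ∀ v, φ a (φ b v) = φ b (φ a v) := by
    intro a b v
    simp only [φ, ← map_mul_apply]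
    congr 1
    simp only [mul_assoc, inv_mul_cancel_left]
    rw [← mul_assoc (a : G), d.radical_comm a.2 b.2, mul_assoc]
  have hsemi : ∀ a : radical ρ, ∃ σ : F ≃+* F, IsSemi σ (φ a) := fun a => hc a a.2
  -- the linear part
  let A₀ : Set (radical ρ) := {a | ∀ (k : F) v, φ a (k • v) = k • φ a v}
  rcases em (∀ a ∈ A₀, a = 1) with htriv | htriv
  · by_cases hall : ∀ a : radical ρ, a ∈ A₀
    · haveI : Subsingleton (radical ρ) := ⟨fun a b => by rw [htriv a (hall a), htriv b (hall b)]⟩
      rw [Nat.card_of_subsingleton (1 : radical ρ)]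
      exact Nat.card_pos
    · have hp2 : p = 2 := by
        by_contra h
        exact hall fun a k v => semi_quad_linear h (hsemi a).choose_spec (hquad a) k v
      -- any two non-linear elements have linear quotient
      have hsub : ∀ a b : radical ρ, a ∉ A₀ → b ∉ A₀ → a = b := by
        intro a b ha hb
        obtain ⟨σ, hσ⟩ := hsemi a
        obtain ⟨τ, hτ⟩ := hsemi b
        have inv2 : ∀ (x : radical ρ) (σ : F ≃+* F), IsSemi σ (φ x) → ∀ y, σ (σ y) = y := by
          intro x σ hσ y
          have hx2 : ∀ v, φ x (φ x v) = v := fun v => by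
            simp only [φ, ← map_mul_apply]
            have := d.radical_pow x.2
            rw [hp2, pow_two] at this
            simp only [mul_assoc, inv_mul_cancel_left]
            rw [← mul_assoc (x : G), this, one_mul, mul_inv_cancel, map_one_apply]
          have h := hx2 (y • (1, 0))
          rw [hσ, hσ, hx2] at h
          exact smul_left_injective F (show ((1, 0) : F × F) ≠ 0 by simp) h
        have ne1 : ∀ (x : radical ρ) (σ : F ≃+* F), IsSemi σ (φ x) → x ∉ A₀ → ∃ y, σ y ≠ y := by
          intro x σ hσ hx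
          by_contra! h
          exact hx fun k v => by rw [hσ, h]
        have hστ : σ = τ := ringAut_involution_unique (inv2 a σ hσ) (ne1 a σ hσ ha)
          (inv2 b τ hτ) (ne1 b τ hτ hb)
        have hab : a * b ∈ A₀ := by
          intro k v
          have e : ∀ w, φ (a * b) w = φ a (φ b w) := fun w => by
            simp only [φ, ← map_mul_apply, Subgroup.coe_mul]
            congr 1; group
          rw [e, e, hτ, hσ, ← hστ, inv2 a σ hσ]
        have := htriv _ hab
        rw [eq_inv_of_mul_eq_one_left this]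
        apply Subtype.ext
        rw [Subgroup.coe_inv, inv_eq_iff_mul_eq_one, ← pow_two, ← hp2]
        exact d.radical_pow b.2
      obtain ⟨a, ha⟩ := not_forall.1 hall
      have hle : (Set.univ : Set (radical ρ)) ⊆ {1, a} := fun b _ => by
        by_cases hb : b ∈ A₀
        · exact Or.inl (htriv b hb)
        · exact Or.inr (hsub b a hb ha)
      have := Set.ncard_le_ncard hle (Set.toFinite _)
      rw [Set.ncard_univ] at this
      exact this.trans ((Set.ncard_insert_le _ _).trans (by
        rw [Set.ncard_singleton]; exact Finite.one_lt_card))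
  push Not at htriv
  obtain ⟨h₁, hh₁, hh₁1⟩ := htriv
  obtain ⟨v₀, hv₀⟩ : ∃ v, φ h₁ v ≠ v := by
    by_contra! h
    apply hh₁1
    apply hφinj
    refine DFunLike.ext _ _ fun v => ?_
    rw [h v]
    simp [φ, map_apply_inv]
  set m := φ h₁ v₀ - v₀ with hm
  have hm0 : m ≠ 0 := sub_ne_zero.2 hv₀
  have hnm : φ h₁ m = m := by rw [hm, map_sub]; exact sub_eq_zero.1 (hquad h₁ v₀)
  have hindep : ∀ x y : F, x • m + y • v₀ = 0 → x = 0 ∧ y = 0 := by
    intro x y h
    have h' := congrArg (φ h₁) h
    rw [map_add, hh₁ x, hh₁ y, hnm, map_zero] at h'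
    have e : y • (φ h₁ v₀ - v₀) = 0 := by
      rw [smul_sub, ← add_sub_add_left_eq_sub _ _ (x • m), h', h, sub_zero]
    rw [← hm] at e
    have hy := (smul_eq_zero.1 e).resolve_right hm0
    rw [hy, zero_smul, add_zero] at h
    exact ⟨(smul_eq_zero.1 h).resolve_right hm0, hy⟩
  have hspan : ∀ v, ∃ x y : F, v = x • m + y • v₀ := by
    let L : F × F → F × F := fun c => c.1 • m + c.2 • v₀
    have hL : Function.Injective L := by
      intro c c' h
      obtain ⟨h1, h2⟩ := hindep (c.1 - c'.1) (c.2 - c'.2) (by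
        rw [sub_smul, sub_smul]
        rw [← sub_eq_zero] at h
        rw [← h]
        simp only [L]; abel)
      exact Prod.ext (sub_eq_zero.1 h1) (sub_eq_zero.1 h2)
    intro v
    obtain ⟨c, hc⟩ := (Finite.injective_iff_surjective.1 hL) v
    exact ⟨c.1, c.2, hc.symm⟩
  -- the coordinates of `a`
  have hcoef : ∀ a : radical ρ, ∃ γ δ : F, φ a v₀ = γ • m + δ • v₀ := fun a => hspan _
  choose γ δ hγ using hcoef
  have ham : ∀ a : radical ρ, φ a m = δ a • m := by
    intro a
    have e1 : φ a m = φ h₁ (φ a v₀) - φ a v₀ := by rw [hm, map_sub, hcomm]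
    rw [e1, hγ, map_add, hh₁, hh₁, hnm, hm]; module
  have hlin : ∀ a ∈ A₀, δ a = 1 := by
    intro a ha
    have h := hquad a m
    rw [ham, ha, ham] at h
    have h' : ((δ a - 1) * (δ a - 1)) • m = 0 := by
      rw [← h]; module
    exact sub_eq_zero.1 (mul_self_eq_zero.1 ((smul_eq_zero.1 h').resolve_right hm0))
  have heq : ∀ a ∈ A₀, ∀ b ∈ A₀, γ a = γ b → a = b := by
    intro a ha b hb h
    apply hφinj
    refine DFunLike.ext _ _ fun v => ?_
    obtain ⟨x, y, rfl⟩ := hspan v
    rw [map_add, map_add, ha, ha, hb, hb, ham, ham, hγ, hγ, hlin a ha, hlin b hb, h]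
  by_cases hall : ∀ a, a ∈ A₀
  · exact Nat.card_le_card_of_injective γ fun a b => heq a (hall a) b (hall b)
  obtain ⟨a, ha⟩ := not_forall.1 hall
  have hp2 : p = 2 := by
    by_contra h
    exact hall fun a k v => semi_quad_linear h (hsemi a).choose_spec (hquad a) k v
  obtain ⟨σ, hσ⟩ := hsemi a
  have hsq : ∀ x : radical ρ, ∀ v, φ x (φ x v) = v := by
    intro x v
    have e2 : ∀ w : F × F, w + w = 0 := fun w => by
      have := add_char_nsmul (p := p) w
      rwa [hp2, two_nsmul] at this
    rw [← sub_eq_zero, show φ x (φ x v) - v =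
      (φ x (φ x v) - φ x v - (φ x v - v)) + (φ x v + φ x v) - (v + v) by abel, hquad x v, e2, e2, e2,
      sub_zero]
  have hσ1 : ∃ y, σ y ≠ y := by
    by_contra! h
    exact ha fun k v => by rw [hσ, h]
  -- coefficients of linear elements are fixed by `σ`
  have hfix : ∀ b ∈ A₀, σ (γ b) = γ b := by
    intro b hb
    have h := hcomm a b v₀
    rw [hγ b, hγ a, map_add, map_add, hb, hb, hσ, hσ, ham, ham, hγ, hγ, hlin b hb, map_one, smul_smul] at h
    have h' : (σ (γ b) * δ a - δ a * γ b) • m + (0 : F) • v₀ = 0 := by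
      rw [← sub_eq_zero] at h
      rw [← h]; module
    have hδ : δ a ≠ 0 := by
      intro h0
      have h1 := ham a
      rw [h0, zero_smul] at h1
      have h2 := hsq a m
      rw [h1, map_zero] at h2
      exact hm0 h2.symm
    obtain ⟨h3, -⟩ := hindep _ _ h'
    rw [mul_comm (σ (γ b))] at h3
    exact mul_left_cancel₀ hδ (sub_eq_zero.1 h3)
  have hA0 : Nat.card A₀ ≤ Nat.card {x : F // σ x = x} :=
    Nat.card_le_card_of_injective (fun b => ⟨γ b.1, hfix b.1 b.2⟩) fun b b' h =>
      Subtype.ext (heq b.1 b.2 b'.1 b'.2 (congrArg Subtype.val h))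
  have inv2 : ∀ (x : radical ρ) (τ : F ≃+* F), IsSemi τ (φ x) → ∀ y, τ (τ y) = y := by
    intro x τ hτ y
    have h := hsq x (y • (1, 0))
    rw [hτ, hτ, hsq] at h
    exact smul_left_injective F (show ((1, 0) : F × F) ≠ 0 by simp) h
  have hcover : ∀ b, b ∉ A₀ → a * b ∈ A₀ := by
    intro b hb k v
    obtain ⟨τ, hτ⟩ := hsemi b
    have hτ1 : ∃ y, τ y ≠ y := by
      by_contra! h
      exact hb fun k v => by rw [hτ, h]
    have hστ : σ = τ := ringAut_involution_unique (inv2 a σ hσ) hσ1 (inv2 b τ hτ) hτ1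
    have e : ∀ w, φ (a * b) w = φ a (φ b w) := fun w => by
      simp only [φ, ← map_mul_apply, Subgroup.coe_mul]
      congr 1; group
    rw [e, e, hτ, hσ, ← hστ, inv2 a σ hσ]
  have h2 : Nat.card (radical ρ) ≤ 2 * Nat.card A₀ := by
    have hsurj : Function.Surjective
        (fun x : Bool × A₀ => bif x.1 then a⁻¹ * x.2.1 else x.2.1) := by
      intro b
      by_cases hb : b ∈ A₀
      · exact ⟨(false, ⟨b, hb⟩), rfl⟩
      · exact ⟨(true, ⟨a * b, hcover b hb⟩), by simp⟩
    have := Nat.card_le_card_of_surjective _ hsurj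
    rwa [Nat.card_prod, Nat.card_eq_fintype_card (α := Bool), Fintype.card_bool] at this
  have hK := card_fixed_sq_le σ hσ1
  haveI : Nontrivial {x : F // σ x = x} :=
    ⟨⟨⟨0, map_zero σ⟩, ⟨1, map_one σ⟩, fun h => zero_ne_one (congrArg Subtype.val h)⟩⟩
  have hK2 : 2 ≤ Nat.card {x : F // σ x = x} := Finite.one_lt_card
  calc Nat.card (radical ρ) ≤ 2 * Nat.card {x : F // σ x = x} := h2.trans (by omega)
    _ ≤ Nat.card {x : F // σ x = x} ^ 2 := by rw [pow_two]; exact Nat.mul_le_mul_right _ hK2
    _ ≤ Nat.card F := hK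

/-- Elements of the radical are upper transvections. -/
theorem exists_e_of_inR {g : G} (hg : InR ρ g) : ∃ t, d.e t = g := by
  have hinj : Function.Injective fun t : F => (⟨d.e t, d.e_inR t⟩ : radical ρ) := fun s t h =>
    d.e_injective (congrArg Subtype.val h)
  have hbij := (Nat.bijective_iff_injective_and_card _).2
    ⟨hinj, le_antisymm (Nat.card_le_card_of_injective _ hinj) d.card_radical_le⟩
  obtain ⟨t, ht⟩ := hbij.2 ⟨g, hg⟩
  exact ⟨t, congrArg Subtype.val ht⟩

theorem Pres.inv {g : G} (h : Pres ρ g) : Pres ρ g⁻¹ := by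
  have hinj : Function.Injective fun x : F => (ρ g (x, 0)).1 := by
    intro x y hxy
    have e : ρ g (x, 0) = ρ g (y, 0) := Prod.ext hxy (by rw [h, h])
    have := congrArg (ρ g⁻¹) e
    rw [map_inv_apply, map_inv_apply] at this
    exact congrArg Prod.fst this
  intro x
  obtain ⟨y, hy⟩ := Finite.injective_iff_surjective.1 hinj x
  have e : ρ g (y, 0) = (x, 0) := Prod.ext hy (h y)
  rw [← e, map_inv_apply]

theorem Pres.apply_eq {g : G} (h : Pres ρ g) (x : F) : ρ g (x, 0) = ((ρ g (x, 0)).1, 0) :=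
  Prod.ext rfl (h x)

/-- The stabiliser of the axis normalises the transvections. -/
theorem exists_conj_e {g : G} (h : Pres ρ g) (s : F) : ∃ t, g * d.e s * g⁻¹ = d.e t := by
  have key : InR ρ (g * d.e s * g⁻¹) := by
    refine ⟨fun x => ?_, fun v => ?_⟩
    · rw [map_mul_apply, map_mul_apply, (Pres.inv h).apply_eq x, d.e_apply, mul_zero, add_zero,
        ← (Pres.inv h).apply_eq x, map_apply_inv]
    · rw [map_mul_apply, map_mul_apply, d.e_apply]
      set w := ρ g⁻¹ v with hw
      rw [show ((w.1 + s * w.2, w.2) : F × F) = w + (s * w.2, 0) by ext <;> simp, map_add,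
        Prod.snd_add, h, add_zero, hw, map_apply_inv]
  obtain ⟨t, ht⟩ := d.exists_e_of_inR key
  exact ⟨t, ht.symm⟩

include d in
/-- The action on the axis of an element of the stabiliser fixing `(w₀, 0)`. -/
theorem exists_aut {g : G} (h : Pres ρ g) {w₀ : F} (hw0 : w₀ ≠ 0) (hfix : ρ g (w₀, 0) = (w₀, 0)) :
    ∃ σ : F ≃+* F, (∀ x, ρ g (x, 0) = (w₀ * σ (x / w₀), 0)) ∧
      ∃ γ : F, ∀ t, Commute g (d.e t) → σ t = γ * t := by
  choose τ hτ using d.exists_conj_e h
  set β : F := (ρ g (0, 1)).2 with hβ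
  set α : F → F := fun x => (ρ g (x, 0)).1 with hα
  have hα' : ∀ x, ρ g (x, 0) = (α x, 0) := fun x => h.apply_eq x
  -- `α (s y) = τ s * β(y)`
  have key : ∀ s y : F, α (s * y) = τ s * (ρ g (0, y)).2 := by
    intro s y
    have e1 : g * d.e s = d.e (τ s) * g := by rw [← hτ s]; group
    have e2 := congrArg (fun z => ρ z (0, y)) e1
    simp only [map_mul_apply, d.e_apply] at e2
    rw [show ((0 + s * y, y) : F × F) = (s * y, 0) + (0, y) by simp, map_add, hα'] at e2
    have e3 := congrArg Prod.fst e2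
    simp only [Prod.fst_add] at e3
    exact add_right_cancel (e3.trans (add_comm _ _))
  have hα0 : Function.Injective α := fun x y hxy => by
    have e : ρ g (x, 0) = ρ g (y, 0) := by rw [hα', hα', hxy]
    have := congrArg (ρ g⁻¹) e
    rw [map_inv_apply, map_inv_apply] at this
    exact congrArg Prod.fst this
  have hzero : α 0 = 0 := by
    simp only [hα, Prod.mk_zero_zero, map_zero, Prod.fst_zero]
  have h1 : α 1 ≠ 0 := fun e => one_ne_zero (hα0 (e.trans hzero.symm))
  have hmul : ∀ s y, α 1 * α (s * y) = α s * α y := by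
    intro s y
    have k1 := key s 1
    have k2 := key 1 y
    have k3 := key 1 1
    have k4 := key s y
    rw [mul_one] at k1 k3
    rw [one_mul] at k2
    rw [k1, k2, k3, k4]; ring
  have hadd : ∀ x y, α (x + y) = α x + α y := by
    intro x y
    simp only [hα]
    rw [show ((x + y, 0) : F × F) = (x, 0) + (y, 0) by simp, map_add, Prod.fst_add]
  let σh : F →+* F :=
    { toFun := fun x => α x / α 1
      map_one' := div_self h1
      map_mul' := fun x y => by field_simp; linear_combination hmul x y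
      map_zero' := by simp [hzero]
      map_add' := fun x y => by rw [hadd, add_div] }
  let σ := RingEquiv.ofBijective σh (Finite.injective_iff_bijective.1 σh.injective)
  have hσ : ∀ x, α x = α 1 * σ x := fun x => (mul_div_cancel₀ _ h1).symm
  have hw : α 1 * σ w₀ = w₀ := by rw [← hσ]; exact congrArg Prod.fst hfix
  refine ⟨σ, fun x => ?_, (ρ g (0, 1)).2 / α 1, fun t ht => ?_⟩
  · rw [hα']
    refine Prod.ext ?_ rfl
    have hsw : σ w₀ ≠ 0 := by simpa using hw0
    change α x = w₀ * σ (x / w₀)
    rw [hσ, map_div₀]; field_simp; linear_combination (σ x) * hw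
  · have hτt : τ t = t := d.e_injective (by rw [← hτ t, ht.eq, mul_inv_cancel_right])
    have k := key t 1
    rw [mul_one, hτt, hσ] at k
    field_simp
    linear_combination k

end Data

end Cfsg.Agent.NatSLTwo
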